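import Cfsg.Agent.Base

/-! Counting fixed points of an element of prime order on an invariant subspace or on a normalised
subgroup (tower E7MAX, item CNT). -/

set_option autoImplicit false

namespace H94.E7

open Module

/-- A self-map of `p`-power order of a finite set. -/
theorem card_modEq {X : Type*} (S : Set X) [Finite S] (f : X → X) {p : ℕ} (hp : p.Prime)
    (hS : ∀ x ∈ S, f x ∈ S) (hf : ∀ x ∈ S, f^[p] x = x) :
    Nat.card S ≡ Nat.card {x | x ∈ S ∧ f x = x} [MOD p] := by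
  classical
  have := Fact.mk hp
  have := Fintype.ofFinite S
  let F : Function.End S := fun x => ⟨f x, hS x x.2⟩
  have h1 : ∀ (k : ℕ) (x : S), ((F ^ k) x : X) = f^[k] x := fun k => by
    induction k with
    | zero => intro x; rfl
    | succ k ih =>
      intro x
      rw [pow_succ, Function.iterate_succ_apply]
      exact ih (F x)
  have h2 : F ^ p ^ 1 = 1 := funext fun x => Subtype.ext (by rw [pow_one, h1]; exact hf x x.2)
  have h3 := Equiv.Perm.card_fixedPoints_modEq h2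
  rw [← Nat.card_eq_fintype_card, ← Nat.card_eq_fintype_card] at h3
  refine h3.trans (by
    rw [Nat.card_congr (α := F.fixedPoints) (β := {x | x ∈ S ∧ f x = x})
      ⟨fun x => ⟨x.1.1, x.1.2, congrArg Subtype.val x.2⟩,
        fun x => ⟨⟨x.1, x.2.1⟩, Subtype.ext x.2.2⟩, fun _ => rfl, fun _ => rfl⟩])

theorem ord_dvd {p r a b : ℕ} (hp : p.Prime) (hr : ¬ p ∣ r) (hab : b ≤ a)
    (h : r ^ a ≡ r ^ b [MOD p]) : orderOf (r : ZMod p) ∣ a - b := by
  have := Fact.mk hp
  have h1 : (r : ZMod p) ^ a = (r : ZMod p) ^ b := by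
    have := (ZMod.natCast_eq_natCast_iff _ _ _).2 h
    simpa using this
  have h2 : (r : ZMod p) ≠ 0 := by rwa [Ne, ZMod.natCast_eq_zero_iff]
  rw [orderOf_dvd_iff_pow_eq_one]
  apply mul_left_cancel₀ (pow_ne_zero b h2)
  rw [← pow_add, Nat.add_sub_cancel' hab, h1, mul_one]

section Lin

variable {K V : Type*} [Field K] [Finite K] [AddCommGroup V] [Module K V] [Module.Finite K V]

/-- CNT: `g ^ p = 1` on the invariant subspace `U`. -/
theorem cnt_modEq (g : V →ₗ[K] V) {p : ℕ} (hp : p.Prime) (U : Submodule K V)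
    (hU : ∀ v ∈ U, g v ∈ U) (hg : ∀ v ∈ U, (g ^ p) v = v) :
    Nat.card K ^ finrank K U ≡ Nat.card K ^ finrank K ↥(U ⊓ LinearMap.ker (g - 1)) [MOD p] := by
  have : Finite V := Module.finite_of_finite K
  have h := card_modEq (U : Set V) g hp hU fun v hv => by
    rw [← Module.End.pow_apply]; exact hg v hv
  rw [← Module.natCard_eq_pow_finrank, ← Module.natCard_eq_pow_finrank]
  refine h.trans (by
    rw [Nat.card_congr (α := {x | x ∈ (U : Set V) ∧ g x = x}) (β := ↥(U ⊓ LinearMap.ker (g - 1)))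
      (Equiv.subtypeEquivRight fun x => by simp [sub_eq_zero])])

/-- CNT: the order of `|K|` modulo `p` divides `dim U - dim Fix_U(g)`. -/
theorem cnt_dvd (g : V →ₗ[K] V) {p : ℕ} (hp : p.Prime) (hK : ¬ p ∣ Nat.card K) (U : Submodule K V)
    (hU : ∀ v ∈ U, g v ∈ U) (hg : ∀ v ∈ U, (g ^ p) v = v) :
    orderOf (Nat.card K : ZMod p) ∣ finrank K U - finrank K ↥(U ⊓ LinearMap.ker (g - 1)) :=
  ord_dvd hp hK (Submodule.finrank_mono inf_le_left) (cnt_modEq g hp U hU hg)

end Lin

section Two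

variable {V : Type*} [AddCommGroup V] [Module (ZMod 2) V] [Module.Finite (ZMod 2) V]

/-- CNT over `F₂` with an explicit multiplicative order `d` of `2` modulo `p`: the dimension `f` of
the fixed space on `U` satisfies `f ≤ dim U` and `dim U ≡ f` modulo `d`. -/
theorem cnt_two (g : V →ₗ[ZMod 2] V) {p d : ℕ} (hp : p.Prime) (h2 : p ≠ 2)
    (hd : orderOf (2 : ZMod p) = d) (U : Submodule (ZMod 2) V)
    (hU : ∀ v ∈ U, g v ∈ U) (hg : ∀ v ∈ U, (g ^ p) v = v) :
    finrank (ZMod 2) U ≡ finrank (ZMod 2) ↥(U ⊓ LinearMap.ker (g - 1)) [MOD d] := by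
  have h := cnt_dvd g hp (by
    rw [Nat.card_zmod]; exact fun k => h2 ((Nat.prime_dvd_prime_iff_eq hp Nat.prime_two).1 k)) U hU hg
  rw [Nat.card_zmod, Nat.cast_ofNat, hd] at h
  exact ((Nat.modEq_iff_dvd' (Submodule.finrank_mono inf_le_left)).2 h).symm

theorem ord_of {p r d : ℕ} (hd : 0 < d) (h1 : r ^ d % p = 1 % p)
    (h2 : ∀ m < d, 0 < m → r ^ m % p ≠ 1 % p) : orderOf (r : ZMod p) = d := by
  refine (orderOf_eq_iff hd).2 ⟨?_, fun m hm h0 k => h2 m hm h0 ?_⟩
  · have := (ZMod.natCast_eq_natCast_iff' _ _ _).2 h1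
    simpa using this
  · apply (ZMod.natCast_eq_natCast_iff' _ _ _).1
    simpa using k

theorem ord_2_43 : orderOf (2 : ZMod 43) = 14 :=
  ord_of (p := 43) (r := 2) (by norm_num) (by norm_num) (by decide)
theorem ord_2_127 : orderOf (2 : ZMod 127) = 7 :=
  ord_of (p := 127) (r := 2) (by norm_num) (by norm_num) (by decide)
theorem ord_2_19 : orderOf (2 : ZMod 19) = 18 :=
  ord_of (p := 19) (r := 2) (by norm_num) (by norm_num) (by decide)
theorem ord_3_43 : orderOf (3 : ZMod 43) = 42 :=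
  ord_of (p := 43) (r := 3) (by norm_num) (by norm_num) (by decide)

end Two

section Grp

variable {G : Type*} [Group G]

/-- CNT for a normalised subgroup. -/
theorem cnt_grp (R : Subgroup G) [Finite R] (g : G) {p : ℕ} (hp : p.Prime) (hg : g ^ p = 1)
    (hR : ∀ x ∈ R, g * x * g⁻¹ ∈ R) :
    Nat.card R ≡ Nat.card ↥(R ⊓ Subgroup.centralizer {g}) [MOD p] := by
  have h1 : ∀ (k : ℕ) (x : G), (fun x => g * x * g⁻¹)^[k] x = g ^ k * x * (g ^ k)⁻¹ := fun k => by
    induction k with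
    | zero => intro x; simp
    | succ k ih => intro x; rw [Function.iterate_succ_apply, ih, pow_succ]; group
  have h := card_modEq (R : Set G) (fun x => g * x * g⁻¹) hp hR fun x _ => by rw [h1, hg]; simp
  refine h.trans (by
    rw [Nat.card_congr (α := {x | x ∈ (R : Set G) ∧ g * x * g⁻¹ = x})
      (β := ↥(R ⊓ Subgroup.centralizer {g})) (Equiv.subtypeEquivRight fun x => by
        simp [Subgroup.mem_centralizer_iff, mul_inv_eq_iff_eq_mul])])

/-- An `r`-group of order `r ^ k`, `k < ord_p(r)`, normalised by `g` of order `p` is centralised. -/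
theorem cnt_cent (R : Subgroup G) (g : G) {p r k : ℕ} (hp : p.Prime) (hr : r.Prime) (hpr : p ≠ r)
    (hg : g ^ p = 1) (hR : ∀ x ∈ R, g * x * g⁻¹ ∈ R) (hk : Nat.card R = r ^ k)
    (hlt : k < orderOf (r : ZMod p)) : ∀ x ∈ R, g * x = x * g := by
  have : Finite R := Nat.finite_of_card_ne_zero (by rw [hk]; exact pow_ne_zero _ hr.ne_zero)
  have h := cnt_grp R g hp hg hR
  obtain ⟨j, hj, e⟩ := (Nat.dvd_prime_pow hr).1
    (hk ▸ Subgroup.card_dvd_of_le (inf_le_left : R ⊓ Subgroup.centralizer {g} ≤ R))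
  rw [hk, e] at h
  have h1 := ord_dvd hp (fun k => hpr ((Nat.prime_dvd_prime_iff_eq hp hr).1 k)) hj h
  have h2 : k - j = 0 := Nat.eq_zero_of_dvd_of_lt h1 (by omega)
  have h3 : R ⊓ Subgroup.centralizer {g} = R :=
    Subgroup.eq_of_le_of_card_ge inf_le_left (by rw [hk, e, show j = k by omega])
  intro x hx
  rw [← h3] at hx
  exact Subgroup.mem_centralizer_iff.1 hx.2 g rfl

/-- A `3`-group of order dividing `3 ^ 41` normalised by an element of order `43` is centralised. -/
theorem cnt_3_43 (R : Subgroup G) (g : G) (hg : g ^ 43 = 1) (hR : ∀ x ∈ R, g * x * g⁻¹ ∈ R)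
    {m : ℕ} (hm : m < 42) (hk : Nat.card R ∣ 3 ^ m) : ∀ x ∈ R, g * x = x * g := by
  obtain ⟨k, hk, e⟩ := (Nat.dvd_prime_pow Nat.prime_three).1 hk
  exact cnt_cent R g (by norm_num) Nat.prime_three (by norm_num) hg hR e (by
    rw [Nat.cast_ofNat, ord_3_43]; omega)

end Grp

end H94.E7
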