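import Cfsg.Agent.H42.IVSpec

/-! Tower IV: the job `XB`. -/

set_option autoImplicit false

namespace H94.IV

open Subgroup H42.IV
open scoped commutatorElement

universe u

theorem jobXB : JobXB.{u} := by
  intro P _ _ A hA hc a e h
  have hcomm : ∀ x ∈ A, ∀ y ∈ A, Commute x y := fun x hx y hy =>
    congrArg Subtype.val (hc.is_comm.comm (⟨x, hx⟩ : A) ⟨y, hy⟩)
  let X : Subgroup P :=
    { carrier := {x | ∃ v ∈ A, v ^ 2 ^ e = x}
      one_mem' := ⟨1, A.one_mem, one_pow _⟩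
      mul_mem' := by
        rintro _ _ ⟨v, hv, rfl⟩ ⟨w, hw, rfl⟩
        exact ⟨v * w, A.mul_mem hv hw, (hcomm v hv w hw).mul_pow _⟩
      inv_mem' := by
        rintro _ ⟨v, hv, rfl⟩
        exact ⟨v⁻¹, A.inv_mem hv, inv_pow _ _⟩ }
  have hXA : X ≤ A := by
    rintro _ ⟨v, hv, rfl⟩
    exact A.pow_mem hv _
  have hXn : ∀ g : P, ∀ x ∈ X, g * x * g⁻¹ ∈ X := by
    rintro g _ ⟨v, hv, rfl⟩
    exact ⟨g * v * g⁻¹, hA.conj_mem v hv g, conj_pow⟩
  have hinv : ∀ x ∈ X, a * x * a⁻¹ = x⁻¹ := by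
    rintro _ ⟨v, hv, rfl⟩
    have h1 := h _ ⟨v, hv, rfl⟩
    rw [(hcomm v hv _ (hA.conj_mem v hv a)).mul_pow, conj_pow] at h1
    exact (inv_eq_of_mul_eq_one_right h1).symm
  refine ⟨X, hXA, fun v hv => ⟨v, hv, rfl⟩, ?_⟩
  set Y := centralizer (X : Set P) with hY
  have hAY : A ≤ Y := fun v hv => mem_centralizer_iff.2 fun x hx => hcomm x (hXA hx) v hv
  have hcY : ∀ g : P, ⁅a, g⁆ ∈ Y := fun g => mem_centralizer_iff.2 fun x hx => by
    have h6 := hinv _ (hXn g⁻¹ _ (X.inv_mem hx))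
    rw [inv_inv] at h6
    have h7 : a⁻¹ * (g⁻¹ * x * g) * a = g⁻¹ * x⁻¹ * g := by
      have : g⁻¹ * x * g = a * (g⁻¹ * x⁻¹ * g) * a⁻¹ := by rw [h6]; group
      rw [this]; group
    have h8 := hinv _ (X.inv_mem hx)
    rw [commutatorElement_def]
    calc x * (a * g * a⁻¹ * g⁻¹) = (a * x⁻¹ * a⁻¹) * (a * g * a⁻¹ * g⁻¹) := by rw [h8, inv_inv]
      _ = a * g * (g⁻¹ * x⁻¹ * g) * a⁻¹ * g⁻¹ := by group
      _ = a * g * (a⁻¹ * (g⁻¹ * x * g) * a) * a⁻¹ * g⁻¹ := by rw [h7]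
      _ = a * g * a⁻¹ * g⁻¹ * x := by group
  have h1 : (centralizer ({(a : P ⧸ A)} : Set (P ⧸ A))).index ≤
      Nat.card (Y.map (QuotientGroup.mk' A)) := by
    refine H9.index_centralizer_le_card fun g => ?_
    obtain ⟨g, rfl⟩ := QuotientGroup.mk'_surjective A g
    exact ⟨_, hcY g, map_commutatorElement _ _ _⟩
  have h2 : Nat.card (Y.map (QuotientGroup.mk' A)) * Nat.card A = Nat.card Y := by
    have h3 := (Y.map (QuotientGroup.mk' A)).card_mul_index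
    rw [Y.index_map_eq (QuotientGroup.mk'_surjective A) (by rwa [QuotientGroup.ker_mk'])] at h3
    have h4 := Y.card_mul_index
    rw [card_eq_card_quotient_mul_card_subgroup A, ← h3, mul_right_comm] at h4
    exact (Nat.eq_of_mul_eq_mul_right (Nat.pos_of_ne_zero index_ne_zero_of_finite) h4).symm
  rw [card_eq_card_quotient_mul_card_subgroup A,
    ← (centralizer ({(a : P ⧸ A)} : Set (P ⧸ A))).card_mul_index, ← h2, mul_assoc]
  exact Nat.mul_le_mul_left _ (Nat.mul_le_mul_right _ h1)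

end H94.IV
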