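import Cfsg.Agent.H42.SimXBSpec

/-! Tower SIM, chapter XA part two: the job `K3`. -/

set_option autoImplicit false

namespace H94.Sim

open Subgroup Cfsg Matrix H0.Sim H42.SX

theorem jobK3 : JobK3 := by
  intro sq n F _ _ u q p Θ H Q E c r
  by_contra hn
  push Not at hn
  obtain ⟨-, h2, h3⟩ := sq n F u q c.par
  let Y : Subgroup (GL (Fin n) F) :=
    { carrier := {x | x ∈ Gam n F u q ∧ (x : Mt n F) ∈ sp E ∧ ((x⁻¹ : GL (Fin n) F) : Mt n F) ∈ sp E}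
      one_mem' := ⟨Subgroup.one_mem _, r.one, by simpa using r.one⟩
      mul_mem' := fun {a b} ha hb => ⟨Subgroup.mul_mem _ ha.1 hb.1, r.mul _ ha.2.1 _ hb.2.1, by
        rw [_root_.mul_inv_rev]
        exact r.mul _ hb.2.2 _ ha.2.2⟩
      inv_mem' := fun {a} ha => ⟨Subgroup.inv_mem _ ha.1, ha.2.2, by
        rw [inv_inv]
        exact ha.2.1⟩ }
  have key : ∀ s ∈ Sg n F u q, ∀ y ∈ Y, s * y * s⁻¹ ∈ Y := fun s hs y hy =>
    ⟨Subgroup.mul_mem _ (Subgroup.mul_mem _ hs.1 hy.1) (Subgroup.inv_mem _ hs.1), hn s hs _ hy.2.1, by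
      rw [show (s * y * s⁻¹)⁻¹ = s * y⁻¹ * s⁻¹ by group]
      exact hn s hs _ hy.2.2⟩
  have hE : E ≤ Y := fun e he => ⟨c.HG (c.QH (c.EQ he)), Submodule.subset_span ⟨e, he, rfl⟩,
    Submodule.subset_span ⟨e⁻¹, E.inv_mem he, rfl⟩⟩
  rcases h2 Y (fun y hy => hy.1) (fun s hs => mem_normalizer_iff.2 fun y => ⟨key s hs y, fun h => by
    have := key s⁻¹ (Subgroup.inv_mem _ hs) _ h
    rwa [show s⁻¹ * (s * y * s⁻¹) * s⁻¹⁻¹ = y by group] at this⟩) with h | h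
  · exact c.ne (hE.trans h)
  · obtain ⟨m, hm, h4⟩ := r.ns
    obtain ⟨a, ha⟩ := h3 m fun s hs => r.comm _ (h hs).2.1 _ hm
    exact h4 a ha

end H94.Sim
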