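/- Ore tower, characteristic two: one and two transvections. -/
import Cfsg.Agent.H93.OrS

set_option autoImplicit false

namespace H94.OrT
open H56 H60 H93.O2 H93.Or QuadraticMap Module

universe u

variable {F V : Type*} [Field F] [AddCommGroup V] [Module F V] {Q : QuadraticForm F V}

/-- the transvection with centre `a` -/
abbrev T (h2 : (2 : F) = 0) (Q : QuadraticForm F V) (a : V) (c : F) : Sp Q :=
  H54.tvV (isAlt h2) a c

theorem T_smul (h2 : (2 : F) = 0) (a : V) (c : F) (w : V) :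
    T h2 Q a c • w = w + (c * polar Q w a) • a := H54.tvV_smul _ a c w

theorem T_sq (h2 : (2 : F) = 0) (a : V) (c : F) : T h2 Q a c * T h2 Q a c = 1 := by
  rw [H54.tvV_mul, ← two_mul, h2, zero_mul, H54.tvV_zero]

/-- the moved space -/
def mv (g : Sp Q) : Submodule F V := LinearMap.range (g.1.toLinearMap - LinearMap.id)

theorem mem_mv {g : Sp Q} {x : V} : x ∈ mv g ↔ ∃ y, g • y - y = x := Iff.rfl

theorem rkS_eq (g : Sp Q) : rkS g = finrank F (mv g) := rfl

theorem mulT_smul (h2 : (2 : F) = 0) {g : Sp Q} {e : V} (he : g • e = e) (y : V) :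
    (g * T h2 Q e 1) • y = g • y + polar Q y e • e := by
  rw [mul_smul, T_smul, one_mul, smul_add, H54.Isom_smul_smul, he]

theorem polar_mulT (h2 : (2 : F) = 0) {g : Sp Q} {e : V} (he : g • e = e) (y : V) :
    polar Q y ((g * T h2 Q e 1) • y) = polar Q y (g • y) + polar Q y e ^ 2 := by
  rw [mulT_smul h2 he, polar_add_right, polar_smul_right, smul_eq_mul, pow_two]

theorem mulT_sq (h2 : (2 : F) = 0) {g : Sp Q} (hg : g * g = 1) {e : V} (he : g • e = e) :
    (g * T h2 Q e 1) * (g * T h2 Q e 1) = 1 := by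
  rw [mul_assoc, ← mul_assoc (T h2 Q e 1), ← tv_comm h2 he, mul_assoc, T_sq, mul_one, hg]

theorem mulT_fix (h2 : (2 : F) = 0) {g : Sp Q} {e : V} (he : g • e = e) :
    (g * T h2 Q e 1) • e = e := by
  rw [mulT_smul h2 he, polar_self2 h2, zero_smul, add_zero, he]

theorem mulTT (h2 : (2 : F) = 0) (g : Sp Q) (e : V) : g * T h2 Q e 1 * T h2 Q e 1 = g := by
  rw [mul_assoc, T_sq, mul_one]

theorem mv_mulT (h2 : (2 : F) = 0) {g : Sp Q} {e : V} (he : g • e = e)
    (h : e ∈ mv (g * T h2 Q e 1)) : mv (g * T h2 Q e 1) = mv g ⊔ Submodule.span F {e} := by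
  refine le_antisymm ?_ (sup_le ?_ ((Submodule.span_singleton_le_iff_mem _ _).2 h))
  · intro x hx
    obtain ⟨y, rfl⟩ := mem_mv.1 hx
    rw [mulT_smul h2 he, add_sub_right_comm]
    exact add_mem (Submodule.mem_sup_left (mem_mv.2 ⟨y, rfl⟩))
      (Submodule.mem_sup_right (Submodule.smul_mem _ _ (Submodule.mem_span_singleton_self e)))
  · intro x hx
    obtain ⟨y, rfl⟩ := mem_mv.1 hx
    have e1 : g • y - y = ((g * T h2 Q e 1) • y - y) - polar Q y e • e := by
      rw [mulT_smul h2 he]; abel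
    rw [e1]
    exact sub_mem (mem_mv.2 ⟨y, rfl⟩) (Submodule.smul_mem _ _ h)

theorem rk_a (h2 : (2 : F) = 0) {g : Sp Q} {e y : V} (he : g • e = e) (hy : g • y - y = e)
    (h0 : polar Q y e = 0) : rkS (g * T h2 Q e 1) = rkS g := by
  have h1 : e ∈ mv (g * T h2 Q e 1) :=
    mem_mv.2 ⟨y, by rw [mulT_smul h2 he, h0, zero_smul, add_zero, hy]⟩
  rw [rkS_eq, rkS_eq, mv_mulT h2 he h1,
    sup_eq_left.2 ((Submodule.span_singleton_le_iff_mem _ _).2 (mem_mv.2 ⟨y, hy⟩))]

theorem rk_b [FiniteDimensional F V] (h2 : (2 : F) = 0) {g : Sp Q} {e y : V} (he : g • e = e)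
    (hy : g • y = y) (h0 : polar Q y e ≠ 0) : rkS (g * T h2 Q e 1) = rkS g + 1 := by
  have h1 : e ∈ mv (g * T h2 Q e 1) := by
    have h3 : polar Q y e • e ∈ mv (g * T h2 Q e 1) :=
      mem_mv.2 ⟨y, by rw [mulT_smul h2 he, hy, add_sub_cancel_left]⟩
    exact (Submodule.smul_mem_iff _ h0).1 h3
  have h4 : e ∉ mv g := fun h => by
    obtain ⟨x, hx⟩ := mem_mv.1 h
    apply h0
    rw [← hx, polar_sub_right, ← sp_polar g y x, hy, sub_self]
  rw [rkS_eq, rkS_eq, mv_mulT h2 he h1, Submodule.finrank_sup_span_singleton h4]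

/-- the centraliser of `t` moves a fixed vector to another one -/
theorem move1 (h2 : (2 : F) = 0) {t : Sp Q} {a b : V} (ha : t • a = a) (hb : t • b = b)
    (h : polar Q a b ≠ 0) : ∃ k : Sp Q, t * k = k * t ∧ k • a = b ∧
      ∀ c, polar Q c a = polar Q c b → k • c = c := by
  refine ⟨T h2 Q (b - a) (polar Q a b)⁻¹, tv_comm h2 (by rw [smul_sub, ha, hb]) _, ?_,
    fun c hc => ?_⟩
  · rw [T_smul, polar_sub_right, polar_self2 h2, sub_zero, inv_mul_cancel₀ h, one_smul,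
      add_sub_cancel]
  · rw [T_smul, polar_sub_right, hc, sub_self, mul_zero, zero_smul, add_zero]

theorem comm_mul {G : Type*} [Group G] {t k l : G} (h1 : t * k = k * t) (h3 : t * l = l * t) :
    t * (k * l) = k * l * t := by
  rw [← mul_assoc, h1, mul_assoc, h3, mul_assoc]

theorem move2 (h2 : (2 : F) = 0) {t : Sp Q} {a a' b b' : V} (ha : t • a = a) (ha' : t • a' = a')
    (hb : t • b = b) (hb' : t • b' = b') (h : polar Q a a' = 1) (h' : polar Q b b' = 1) :
    ∃ k : Sp Q, t * k = k * t ∧ k • a = b := by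
  by_cases h0 : polar Q a b = 0
  · obtain ⟨z, hz, z1, z2⟩ : ∃ z, t • z = z ∧ polar Q a z ≠ 0 ∧ polar Q z b ≠ 0 := by
      by_cases h1 : polar Q a' b = 0
      · by_cases h3 : polar Q a b' = 0
        · refine ⟨a' + b', by rw [smul_add, ha', hb'], ?_, ?_⟩
          · rw [polar_add_right, h, h3, add_zero]; exact one_ne_zero
          · rw [polar_add_left, h1, zero_add, polar_comm, h']; exact one_ne_zero
        · exact ⟨b', hb', h3, by rw [polar_comm, h']; exact one_ne_zero⟩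
      · exact ⟨a', ha', by rw [h]; exact one_ne_zero, h1⟩
    obtain ⟨k, k1, k2, -⟩ := move1 h2 ha hz z1
    obtain ⟨l, l1, l2, -⟩ := move1 h2 hz hb z2
    exact ⟨l * k, comm_mul l1 k1, by rw [mul_smul, k2, l2]⟩
  · obtain ⟨k, k1, k2, -⟩ := move1 h2 ha hb h0
    exact ⟨k, k1, k2⟩

theorem move3 (h2 : (2 : F) = 0) {t : Sp Q} {a' b b' : V} (ha' : t • a' = a')
    (hb : t • b = b) (hb' : t • b' = b') (h : polar Q b a' = 1) (h' : polar Q b b' = 1) :
    ∃ k : Sp Q, t * k = k * t ∧ k • b = b ∧ k • a' = b' := by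
  by_cases h0 : polar Q a' b' = 0
  · have hz : t • (b + a') = b + a' := by rw [smul_add, hb, ha']
    have e1 : polar Q b (b + a') = 1 := by rw [polar_add_right, polar_self2 h2, zero_add, h]
    obtain ⟨k, k1, k2, k3⟩ := move1 h2 ha' hz (by
      rw [polar_add_right, polar_self2 h2, add_zero, polar_comm, h]; exact one_ne_zero)
    obtain ⟨l, l1, l2, l3⟩ := move1 h2 hz hb' (by
      rw [polar_add_left, h0, add_zero, h']; exact one_ne_zero)
    refine ⟨l * k, comm_mul l1 k1, ?_, by rw [mul_smul, k2, l2]⟩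
    rw [mul_smul, k3 b (by rw [h, e1]), l3 b (by rw [e1, h'])]
  · obtain ⟨k, k1, k2, k3⟩ := move1 h2 ha' hb' h0
    exact ⟨k, k1, k3 b (by rw [h, h']), k2⟩

/-- transitivity of the centraliser on fixed hyperbolic pairs -/
theorem move (h2 : (2 : F) = 0) {t : Sp Q} {a a' b b' : V} (ha : t • a = a) (ha' : t • a' = a')
    (hb : t • b = b) (hb' : t • b' = b') (h : polar Q a a' = 1) (h' : polar Q b b' = 1) :
    ∃ k : Sp Q, t * k = k * t ∧ k • a = b ∧ k • a' = b' := by
  obtain ⟨k, k1, k2⟩ := move2 h2 ha ha' hb hb' h h'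
  obtain ⟨l, l1, l2, l3⟩ := move3 h2 (a' := k • a')
    (by rw [← mul_smul, k1, mul_smul, ha']) hb hb' (by rw [← k2, sp_polar, h]) h'
  exact ⟨l * k, comm_mul l1 k1, by rw [mul_smul, k2, l2], by rw [mul_smul, l3]⟩

/-- splitting off the plane spanned by `v` and `s • v` -/
theorem split [FiniteDimensional F V] (h2 : (2 : F) = 0) {s : Sp Q} (hs : s * s = 1) {v : V}
    (hv : polar Q v (s • v) = 1) : ∃ r : Sp Q, r * r = 1 ∧ r • v = v ∧ r • s • v = s • v ∧
      s = r * T h2 Q (v + s • v) 1 ∧ rkS s = rkS r + 1 ∧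
      ∀ y, polar Q y v = 0 → polar Q y (s • v) = 0 → polar Q y (r • y) = polar Q y (s • y) := by
  have e0 : s • s • v = v := by rw [← mul_smul, hs, one_smul]
  have e1 : s • (v + s • v) = v + s • v := by rw [smul_add, e0, add_comm]
  have e2 : polar Q v (v + s • v) = 1 := by rw [polar_add_right, polar_self2 h2, zero_add, hv]
  have e3 : (s * T h2 Q (v + s • v) 1) • v = v := by
    rw [mulT_smul h2 e1, e2, one_smul, add_comm v, ← add_assoc, add_self2 h2, zero_add]
  have e4 := mulT_fix h2 e1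
  refine ⟨s * T h2 Q (v + s • v) 1, mulT_sq h2 hs e1, e3, ?_, (mulTT h2 _ _).symm, ?_,
    fun y y1 y2 => ?_⟩
  · rw [smul_add, e3] at e4
    exact add_left_cancel e4
  · rw [← rk_b h2 e4 e3 (by rw [e2]; exact one_ne_zero), mulTT]
  · rw [polar_mulT h2 e1, polar_add_right, y1, y2]
    simp

variable [FiniteDimensional F V] [Finite F] [CharP F 2]

theorem even_rkS (hQ : Q.polarBilin.Nondegenerate) {g : Sp Q} (h : AltS g) : Even (rkS g) := by
  have h2 : (2 : F) = 0 := CharTwo.two_eq_zero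
  obtain ⟨m, φ, -, hφ⟩ := H54.exists_isometry_std hQ (isAlt h2)
  rw [← finrank_spMov φ hφ]
  exact ((isAltType_iff φ hφ _).2 h).even_finrank

theorem exists_conj (hQ : Q.polarBilin.Nondegenerate) {g k : Sp Q} (hg : g * g = 1)
    (hk : k * k = 1) (h : rkS g = rkS k) (h1 : ¬ AltS g) (h3 : ¬ AltS k) :
    ∃ c : Sp Q, c * g * c⁻¹ = k :=
  isConj_iff.1 ((isConj_sp_iff hQ (by rw [pow_two, hg]) (by rw [pow_two, hk])).2
    ⟨h, iff_of_false h1 h3⟩)

theorem pl (hQ : Q.polarBilin.Nondegenerate) {s t : Sp Q} (hs : s * s = 1) (ht : t * t = 1)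
    (hr : rkS s = rkS t) {v w : V} (hv : polar Q v (s • v) = 1) (hw : polar Q w (t • w) = 1)
    (h : Even (rkS s) ∨
      ((∃ y, polar Q y v = 0 ∧ polar Q y (s • v) = 0 ∧ polar Q y (s • y) ≠ 0) ∧
       (∃ y, polar Q y w = 0 ∧ polar Q y (t • w) = 0 ∧ polar Q y (t • y) ≠ 0))) :
    ∃ c : Sp Q, c * s * c⁻¹ = t ∧ c • v = w := by
  have h2 : (2 : F) = 0 := CharTwo.two_eq_zero
  obtain ⟨r, r1, r2, r3, r4, r5, r6⟩ := split h2 hs hv
  obtain ⟨p, p1, p2, p3, p4, p5, p6⟩ := split h2 ht hw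
  have hA : ¬ AltS r ∧ ¬ AltS p := by
    rcases h with h | ⟨⟨y, y1, y2, y3⟩, z, z1, z2, z3⟩
    · refine ⟨fun e => ?_, fun e => ?_⟩
      · have := even_rkS hQ e
        rw [Nat.even_iff] at h this
        omega
      · have := even_rkS hQ e
        rw [Nat.even_iff] at h this
        omega
    · exact ⟨fun e => y3 (by rw [← r6 y y1 y2]; exact e y),
        fun e => z3 (by rw [← p6 z z1 z2]; exact e z)⟩
  obtain ⟨c, hc⟩ := exists_conj hQ r1 p1 (by omega) hA.1 hA.2
  have hf : ∀ x : V, r • x = x → p • c • x = c • x := fun x hx => by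
    rw [← hc, mul_smul, mul_smul, inv_smul_smul, hx]
  obtain ⟨k, k1, k2, k3⟩ := move h2 (hf _ r2) (hf _ r3) p2 p3 (by rw [sp_polar, hv]) hw
  refine ⟨k * c, ?_, by rw [mul_smul, k2]⟩
  have e1 : k * c * r * (k * c)⁻¹ = p := by
    calc k * c * r * (k * c)⁻¹ = k * (c * r * c⁻¹) * k⁻¹ := by group
      _ = p := by rw [hc, ← k1, mul_inv_cancel_right]
  have e2 := H54.tvV_conj (isAlt h2 (Q := Q)) (k * c) (v + s • v) 1
  rw [smul_add, mul_smul, mul_smul, k2, k3] at e2
  calc k * c * s * (k * c)⁻¹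
      = (k * c * r * (k * c)⁻¹) * (k * c * T h2 Q (v + s • v) 1 * (k * c)⁻¹) := by
        conv_lhs => rw [r4]
        group
    _ = t := by rw [e1, e2, ← p4]

omit [FiniteDimensional F V] [Finite F] [CharP F 2] in
theorem inc_sq {s : O Q} (hs : s * s = 1) : inc Q s * inc Q s = 1 := by
  rw [← map_mul, hs, map_one]

omit [FiniteDimensional F V] [Finite F] [CharP F 2] in
theorem fix_of_mov (h2 : (2 : F) = 0) {s : O Q} (hs : s * s = 1) {e : V} (he : e ∈ s.mov) :
    inc Q s • e = e := O.mem_fix.1 (mov_le_fix h2 (by rw [pow_two, hs]) he)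

omit [FiniteDimensional F V] [Finite F] [CharP F 2] in
theorem polar_of_sub (h2 : (2 : F) = 0) (s : O Q) (y : V) : polar Q y (s y - y) = Q (s y - y) := by
  rw [Q_sub_eq h2, polar_sub_right, polar_self2 h2, sub_zero]

theorem jobTE : JobTE.{u} := by
  intro F V _ _ _ _ _ _ Q hQ s t e hs ht hr he hq hte ⟨y, y1, y2⟩ ⟨z, hz⟩
  have h2 : (2 : F) = 0 := CharTwo.two_eq_zero
  have hse := fix_of_mov h2 hs he
  have hte' : inc Q t • e = e := hte
  obtain ⟨x, hx⟩ := O.mem_mov.1 he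
  have r1 := rk_a h2 hse (y := x) hx (by rw [← hx, polar_of_sub h2, hx, hq])
  have r2 := rk_b h2 hte' (y := y) y1 y2
  rw [rkS_inc] at r1 r2
  have q2 := mulT_sq h2 (inc_sq ht) hte'
  obtain ⟨c, hc⟩ := exists_conj hQ (mulT_sq h2 (inc_sq hs) hse) q2 (by omega)
    (fun h => hz (by
      have := h z
      rw [polar_mulT h2 hse, inc_smul] at this
      linear_combination this - polar Q z e ^ 2 * h2))
    (fun h => y2 (by
      have := h y
      rw [polar_mulT h2 hte', inc_smul, y1, polar_self2 h2, zero_add] at this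
      exact pow_eq_zero_iff two_ne_zero |>.1 this))
  refine ⟨inc Q s * T h2 Q e 1, c, ?_⟩
  have e1 : c * (inc Q s * T h2 Q e 1)⁻¹ * c⁻¹ = inc Q t * T h2 Q e 1 := by
    rw [← inv_eq_of_mul_eq_one_right q2, ← hc]
    group
  calc inc Q (s * t) = inc Q s * T h2 Q e 1 * (inc Q t * T h2 Q e 1) := by
        rw [tv_comm h2 hte', ← mul_assoc, mulTT, map_mul]
    _ = _ := by rw [← e1]; group

theorem jobT2 : JobT2.{u} := by
  intro F V _ _ _ _ _ _ Q hQ s t v w hs ht hr hv qv hvs hw qw hwv hwt h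
  have h2 : (2 : F) = 0 := CharTwo.two_eq_zero
  have hsw := fix_of_mov h2 hs hw
  have htv := fix_of_mov h2 ht hv
  obtain ⟨x, hx⟩ := O.mem_mov.1 hw
  obtain ⟨y, hy⟩ := O.mem_mov.1 hv
  have r1 := rk_a h2 hsw (y := x) hx (by rw [← hx, polar_of_sub h2, hx, qw])
  have b1 : polar Q y v = 1 := by rw [← hy, polar_of_sub h2, hy, qv]
  have r2 := rk_b h2 (mulT_fix h2 htv) (y := y) (by
    rw [mulT_smul h2 htv, b1, one_smul, inc_smul, sub_eq_iff_eq_add.1 hy, add_right_comm,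
      add_self2 h2, zero_add]) (by rw [b1]; exact one_ne_zero)
  rw [mulTT, rkS_inc] at r2
  rw [rkS_inc] at r1
  have s1 : (inc Q s * T h2 Q w 1) • v = s v := by
    rw [mulT_smul h2 hsw, polar_comm, hwv, zero_smul, add_zero, inc_smul]
  have t1 : (inc Q t * T h2 Q v 1) • w = t w := by
    rw [mulT_smul h2 htv, hwv, zero_smul, add_zero, inc_smul]
  obtain ⟨c, c1, c2⟩ := pl hQ (mulT_sq h2 (inc_sq hs) hsw) (mulT_sq h2 (inc_sq ht) htv)
    (by omega) (v := v) (w := w) (by rw [s1, hvs]) (by rw [t1, hwt]) (by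
      rcases h with h | ⟨⟨a, a1, a2, a3⟩, b, b1, b2, b3⟩
      · exact Or.inl (by rwa [r1])
      · refine Or.inr ⟨⟨a, a1, by rwa [s1], fun e => a3 ?_⟩, b, b1, by rwa [t1], fun e => b3 ?_⟩
        · rw [polar_mulT h2 hsw, inc_smul] at e
          linear_combination e - polar Q a w ^ 2 * h2
        · rw [polar_mulT h2 htv, inc_smul] at e
          linear_combination e - polar Q b v ^ 2 * h2)
  have e2 : c * T h2 Q v 1 * c⁻¹ = T h2 Q w 1 := by
    rw [← c2]
    exact H54.tvV_conj (isAlt h2 (Q := Q)) c v 1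
  have e3 : T h2 Q v 1 * T h2 Q w 1 = T h2 Q w 1 * T h2 Q v 1 :=
    tv_comm h2 (by rw [T_smul, hwv, mul_zero, zero_smul, add_zero]) 1
  refine ⟨inc Q s * T h2 Q w 1 * T h2 Q v 1, c, ?_⟩
  have e4 : c * (inc Q s * T h2 Q w 1 * T h2 Q v 1) * c⁻¹ =
      inc Q t * (T h2 Q w 1 * T h2 Q v 1) := by
    rw [← e3, ← mul_assoc (inc Q t), ← c1]
    conv_rhs => rw [← e2]
    conv_rhs => enter [1]; rw [e2]
    group
  have e5 : inc Q t = (inc Q t)⁻¹ := (inv_eq_of_mul_eq_one_right (inc_sq ht)).symm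
  calc inc Q (s * t) = inc Q s * T h2 Q w 1 * T h2 Q v 1 *
        (inc Q t * (T h2 Q w 1 * T h2 Q v 1))⁻¹ := by
        rw [map_mul]
        conv_lhs => rw [e5]
        group
    _ = _ := by rw [← e4]; group

end H94.OrT
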