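import Cfsg.Agent.H9.CKASpec
import Cfsg.Agent.H21.D4Mult

/-! CKS (S2193): condition (C) for the triality groups. -/

set_option autoImplicit false

namespace H94.CK

open H64 H68 H65 H21 Subgroup Cfsg.Lie
open scoped commutatorElement

variable {K : Type} [Field K] [Fintype K] {q : ℕ} (hq : IsPrimePow q) (hK : Fintype.card K = q ^ 3)
include hq hK

theorem exists_ne : ∃ a : K, a ^ q + a ^ q ^ 2 ≠ 0 := by
  have h1 := hq.one_lt
  obtain ⟨u, hu⟩ := exists_pow_ne_one_of_isCyclic (G := Kˣ) (k := (q ^ 2 - q) * 2)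
    (by have : q < q ^ 2 := by nlinarith
        omega) (by
    rw [Nat.card_units, Nat.card_eq_fintype_card, hK]
    have : q ^ 2 * 2 ≤ q ^ 3 := by rw [pow_succ q 2]; exact Nat.mul_le_mul_left _ h1
    have : q < q ^ 2 := by nlinarith
    omega)
  refine ⟨u, fun e => hu (Units.ext ?_)⟩
  have : (u : K) ^ (q ^ 2 - q) = -1 := mul_left_cancel₀ (pow_ne_zero q u.ne_zero) (by
    rw [← pow_add, Nat.add_sub_cancel' (by nlinarith)]; linear_combination e)
  rw [Units.val_pow_eq_pow_val, pow_mul, this, neg_one_sq, Units.val_one]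

theorem layers (u : twistedD4 K q) (hu : u ∈ UL (mat chevD4 K) rkD4 (twistedD4 K q) 2) :
    u ∈ ⁅UL (mat chevD4 K) rkD4 (twistedD4 K q) 0, UL (mat chevD4 K) rkD4 (twistedD4 K q) 0⁆ := by
  have W := twOK_D4 hq hK
  set U := UL (mat chevD4 K) rkD4 (twistedD4 K q) with hU
  have step : ∀ k < 6, (∀ u ∈ U k, ∃ y ∈ U k, y ∈ ⁅U 0, U 0⁆ ∧
      co (mat chevD4 K) rkD4 (repD4 k) y = co (mat chevD4 K) rkD4 (repD4 k) u) →
      U (k + 1) ≤ ⁅U 0, U 0⁆ → U k ≤ ⁅U 0, U 0⁆ := fun k hk h ih u hu => by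
    obtain ⟨y, h1, h2, h3⟩ := h u hu
    exact (mul_mem_cancel_left (inv_mem h2)).1 (ih (((W.coord hk).mem_iff h1 hu).2 h3))
  have hx : ∀ w : List (ℕ × K), (∀ r ∈ w.map Prod.fst, chevD4.IsPosRoot r) →
      (mat chevD4 K).wd w ∈ AK (mat chevD4 K) rkD4 0 := fun w h =>
    (W.co_wd (by decide) fun r hr => ⟨h r hr, Nat.zero_le _⟩).1
  have cm : ∀ {k : ℕ} {t : K} {a b}, a ∈ twistedD4 K q → b ∈ twistedD4 K q →
      a ∈ AK (mat chevD4 K) rkD4 0 → b ∈ AK (mat chevD4 K) rkD4 0 →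
      ⁅a, b⁆ ∈ AK (mat chevD4 K) rkD4 k ∧ co (mat chevD4 K) rkD4 (repD4 k) ⁅a, b⁆ = t →
      ∃ y ∈ U k, y ∈ ⁅U 0, U 0⁆ ∧ co (mat chevD4 K) rkD4 (repD4 k) y = t :=
    fun {k t a b} ha hb h1 h2 h3 => ⟨⁅(⟨a, ha⟩ : twistedD4 K q), (⟨b, hb⟩ : twistedD4 K q)⁆, h3.1,
      commutator_mem_commutator h1 h2, h3.2⟩
  have hf : ∀ k, k = 4 ∨ k = 5 → ∀ u ∈ U k,
      co (mat chevD4 K) rkD4 (repD4 k) u ^ q = co (mat chevD4 K) rkD4 (repD4 k) u := by
    rintro k (rfl | rfl) u hu <;>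
    simpa [smD4_γ, smD4_e, gamD4, repD4] using W.co_fixed (by decide) (by rw [smD4_ρ]; rfl) hu
  refine step 2 (by decide) (fun u _ => ?_) (step 3 (by decide) (fun u _ => ?_) (step 4 (by decide)
    (fun u hu => ?_) (step 5 (by decide) (fun u hu => ?_) ((tw_bot W.hl _).le.trans bot_le)))) hu
  · refine cm (fix1_mem hq hK (r := 14) (by decide) (one_pow q))
      (xa_mem (co (mat chevD4 K) rkD4 19 u)) (hx _ (by simp; decide)) (hx _ (by simp; decide)) ?_
    rw [d4_b_a]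
    exact (W.co_wd (by decide) (by simp; decide)).imp_right fun h => h.trans (by simp [repD4])
  · obtain ⟨a, ha⟩ := exists_ne hq hK
    obtain ⟨y, y1, y2, y3⟩ := cm (k := 3) (t := -(a ^ q + a ^ q ^ 2)) (xa_mem a) (xab_mem hq hK)
      (hx _ (by simp; decide)) (hx _ (by simp; decide)) (by
        rw [d4_a_ab]
        exact (W.co_wd (by decide) (by simp; decide)).imp_right fun h => h.trans (by simp [repD4]))
    rw [← neg_ne_zero] at ha
    generalize -(a ^ q + a ^ q ^ 2) = v at ha y3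
    have c := W.coord (k := 3) (by decide)
    have key : ∀ s : K, ∃ z ∈ U 3, z ∈ ⁅U 0, U 0⁆ ∧
        co (mat chevD4 K) rkD4 (repD4 3) z = s ^ 2 * v := fun s => by
      by_cases hs : s = 0
      · exact ⟨1, one_mem _, one_mem _, c.one.trans (by simp [hs])⟩
      lift s to Kˣ using IsUnit.mk0 s hs
      have m := torD4 hq hK (s ^ q * s ^ q ^ 2) (one_pow q)
      have n : ∀ x ∈ U 0, (⟨_, m⟩ : twistedD4 K q) * x * (⟨_, m⟩ : twistedD4 K q)⁻¹ ∈ U 0 :=
        (W.coord (k := 0) (by decide)).norm ⟨_, m⟩ ((mat chevD4 K).tor_mem _)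
      refine ⟨_, c.norm ⟨_, m⟩ ((mat chevD4 K).tor_mem _) y y1, ?_,
        (c.conj ⟨_, m⟩ ((mat chevD4 K).tor_mem _) y y1).trans ?_⟩
      · have := mem_map_of_mem (MulAut.conj (⟨_, m⟩ : twistedD4 K q)).toMonoidHom y2
        rw [map_commutator] at this
        have l : (U 0).map (MulAut.conj (⟨_, m⟩ : twistedD4 K q)).toMonoidHom ≤ U 0 := by
          rintro _ ⟨x, hx, rfl⟩; exact n x hx
        exact commutator_mono l l this
      · have h3 : (s ^ q ^ 2) ^ q = s := Units.ext (by simpa using pow_q3 hq hK (s : K))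
        rw [y3, chiG_tor _ (by decide), chi_repD4 _ _ _ _ 3 (by decide), smul_eq_mul,
          ← Units.val_pow_eq_pow_val]
        congr 2
        simp only [List.getD_cons_succ, List.getD_cons_zero, pow_two q, pow_mul, mul_pow] at h3 ⊢
        rw [h3, div_eq_iff_eq_mul, pow_two]
        ac_rfl
    generalize co (mat chevD4 K) rkD4 (repD4 3) u = w
    by_cases h2 : (2 : K) = 0
    · obtain ⟨s, hs⟩ := FiniteField.isSquare_of_char_two
        (CharP.ringChar_of_prime_eq_zero Nat.prime_two (by exact_mod_cast h2)) (w / v)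
      obtain ⟨z, z1, z2, z3⟩ := key s
      exact ⟨z, z1, z2, by rw [z3, pow_two, ← hs, div_mul_cancel₀ _ ha]⟩
    obtain ⟨z, z1, z2, z3⟩ := key ((w / v + 1) / 2)
    obtain ⟨x, x1, x2, x3⟩ := key ((w / v - 1) / 2)
    refine ⟨z * x⁻¹, mul_mem z1 (inv_mem x1), mul_mem z2 (inv_mem x2),
      (c.mul _ z1 _ (inv_mem x1)).trans ?_⟩
    rw [c.inv x1, z3, x3]
    field_simp
    ring
  · obtain ⟨a, ha⟩ := trace3_surj hq hK (hf 4 (.inl rfl) u hu)
    have h3 := x2_mem hq hK (-1)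
    simp only [pow_two q, pow_mul, neg_one_pow_D4 hq hK, neg_neg] at h3
    refine cm (xa_mem a) h3 (hx _ (by simp; decide)) (hx _ (by simp; decide)) ?_
    rw [d4_a_2]
    exact (W.co_wd (by decide) (by simp; decide)).imp_right fun h => h.trans (by simp [repD4, ha])
  · refine cm (fix1_mem hq hK (r := 14) (by decide) (hf 5 (.inr rfl) u hu))
      (fix1_mem hq hK (r := 22) (by decide) (one_pow q)) (hx _ (by simp; decide))
      (hx _ (by simp; decide)) ?_
    rw [d4_b_4]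
    exact (W.co_wd (by decide) (by simp; decide)).imp_right fun h => h.trans (by simp [repD4])

omit hq hK in
theorem rk_two : ∀ r : Fin chevD4.nroots, chevD4.IsPosRoot r → (∀ i < 4, (r : ℕ) ≠ chevD4.simple i) →
    2 ≤ rkD4 r := by decide +kernel

end H94.CK

namespace H94.CK

open H64 H68 H65 H21 Subgroup Cfsg.Lie

theorem jobCD4 : H9.CK.JobCD4 := fun p _ K _ _ _ q hq hK => by
  refine ⟨(isTw_D4 hq hK).lieS p, H9.CK.cc_tw (isTw_D4 hq hK) fun g hg => ?_⟩
  have h := mem_map_of_mem (twistedD4 K q).subtype (layers hq hK ⟨g, hg.2⟩ (gen_mono _ (fun r hr =>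
    And.intro hr.1 (rk_two r (rd_pos.1 hr.1) fun i hi e => hr.2 ⟨i, hi⟩ (Fin.ext e))) hg.1))
  rwa [map_commutator, subgroupOf_map_subtype, AK_zero] at h

end H94.CK
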