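/- Tower FB (S3404), slot J11. -/
import Cfsg.Agent.H11.FBSpec

set_option autoImplicit false

namespace H94.FB

open MulAction Subgroup H11.FB

universe u v

/-- a Sylow subgroup of `H` through `h` -/
theorem exists_syl {G : Type u} [Group G] [Finite G] {H : Subgroup G} {h : G} {p : ℕ} (hp : p.Prime)
    (hh : h ∈ H) (ho : orderOf h = p) : ∃ R : Subgroup G, h ∈ R ∧ R ≤ H ∧ IsPGroup p R ∧
      ∃ m, ¬ p ∣ m ∧ Nat.card H = m * Nat.card R := by
  have : Fact p.Prime := ⟨hp⟩
  have h1 : IsPGroup p (zpowers (⟨h, hh⟩ : H)) :=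
    IsPGroup.of_card (n := 1) (by rw [Nat.card_zpowers, pow_one, ← ho, orderOf_mk])
  obtain ⟨S, hS⟩ := h1.exists_le_sylow
  refine ⟨(S : Subgroup H).map H.subtype, ⟨_, hS (mem_zpowers _), rfl⟩, map_subtype_le _,
    S.isPGroup'.map _, (S : Subgroup H).index, S.not_dvd_index, ?_⟩
  rw [card_map_of_injective H.subtype_injective, index_mul_card]

theorem jobJ11 : JobJ11.{u, v} := by
  intro bu sv fi ev h3 G Ω _ _ _ _ _ _ a b c d K H P h cx hh ho th np
  have H1 : Nat.card H ≠ 1 := fun e => cx.hy.fr.Hne (card_eq_one.1 e)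
  have hr : (orderOf h).Prime := ho ▸ Nat.minFac_prime H1
  have r2 : orderOf h ≠ 2 := fun e => by
    have := Nat.minFac_dvd (Nat.card H)
    rw [← ho, e] at this
    exact (Nat.not_even_iff_odd.2 cx.odd) (even_iff_two_dvd.2 this)
  have t1 := cx.th1 h hh hr
  have cen := (cx.th2 h hh hr).perf (.inr (.inr th)) (cx.fh.cen h hh ho)
  have cX := t1.cardX
  rw [th] at cX
  have HX : H ≤ X3 G a b c := cx.hy.fr.Hle.trans inf_le_left
  obtain ⟨R, hR, RH, pR, m, hm, cH⟩ := exists_syl hr hh rfl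
  obtain ⟨X₁, cp⟩ := bu hr r2 rfl hR (RH.trans HX) pR (cx.fh.cyc _ hr R RH pR) (fun g _ => cen g)
    ⟨8 * m, fun e => ((Nat.Prime.dvd_mul hr).1 e).elim (fun e => r2
      ((Nat.prime_dvd_prime_iff_eq hr Nat.prime_two).1 (hr.dvd_of_dvd_pow (n := 3) e))) hm,
      by rw [cX, cH, mul_assoc]⟩
  exfalso
  rcases Nat.even_or_odd (Fintype.card Ω) with n | n
  · obtain ⟨x, hx⟩ := exists_prime_orderOf_dvd_card' (G := (normalizer (zpowers h : Set G) ⊓ X3 G a b c :
      Subgroup G)) 2 (by rw [cX]; exact Dvd.dvd.mul_right (by decide) _)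
    rw [← orderOf_coe] at hx
    have := ev cx.hy cx.cd cx.odd cx.pd n hh hr cp x.2.2
      (by rw [← sq, ← hx, pow_orderOf_eq_one]) (cen _ x.2.1)
    rw [this, orderOf_one] at hx
    exact absurd hx (by decide)
  · have c3 := (h3 cx hh hr (by omega) (by omega)).2 n
    have o3 : orderOf h = 3 := by rw [ho, c3]; norm_num
    have le : X₁ ⊓ centralizer {h} ≤ normalizer (zpowers h : Set G) ⊓ X3 G a b c := fun x hx => by
      refine ⟨centralizer_le_normalizer _ fun y hy => ?_, cp.le hx.1⟩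
      obtain ⟨k, rfl⟩ := mem_zpowers_iff.1 hy
      exact (Commute.zpow_left (hx.2 h rfl) k).eq
    have d1 := card_dvd_of_le le
    rw [cX, c3] at d1
    have d2 : (Nat.card (X₁ ⊓ centralizer {h} : Subgroup G)).Coprime 3 :=
      Nat.Coprime.coprime_dvd_left (card_dvd_of_le inf_le_left) (o3 ▸ cp.cop)
    have d3 : Nat.card (X₁ ⊓ centralizer {h} : Subgroup G) ∣ 2 ^ 3 := d2.dvd_of_dvd_mul_right d1
    obtain ⟨k, -, e⟩ := (Nat.dvd_prime_pow Nat.prime_two).1 d3
    obtain ⟨O, o1, o2, o4, o5⟩ := fi (sv hr cp (HX hh) rfl (.inr (IsPGroup.of_card e)))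
      fun p hp _ => np p hp (.inr (by decide))
    have ob := np 3 Nat.prime_three (.inr (by decide)) O o1
      (fun g hg => o4 g fun x hx => mul_mem (mul_mem hg hx) (inv_mem hg)) o2
    have := o5 h (HX hh) fun y hy => by rw [ob, mem_bot] at hy; rw [hy, mul_one, one_mul]
    rw [ob, mem_bot] at this
    rw [this, orderOf_one] at o3
    exact absurd o3 (by decide)

end H94.FB
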