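import Cfsg.Agent.H97.OrSpec2

/-! Commutators in symplectic groups of odd characteristic: a plane next to a double block. -/

set_option autoImplicit false

namespace H94.OrA

open Module H53 H97.Or

universe u

variable {F : Type*} [Field F] {V : Type*} [AddCommGroup V] [Module F V]
variable {B : V →ₗ[F] V →ₗ[F] F}

theorem skew (hB : IsSF (σ := RingHom.id F) (-1) B) (x y : V) : B y x = -B x y := by
  simpa using hB.symm x y

theorem zero_of_neg (h2 : (2 : F) ≠ 0) {t : F} (h : t = -t) : t = 0 :=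
  (mul_eq_zero.1 (by linear_combination h : 2 * t = 0)).resolve_left h2

theorem vzero (h2 : (2 : F) ≠ 0) {x : V} (h : x = -x) : x = 0 :=
  (smul_eq_zero.1 (by rw [two_smul]; nth_rw 1 [h]; simp : (2 : F) • x = 0)).resolve_left h2

theorem self0 (h2 : (2 : F) ≠ 0) (hB : IsSF (σ := RingHom.id F) (-1) B) (x : V) : B x x = 0 :=
  zero_of_neg h2 (skew hB x x)

theorem plane (h2 : (2 : F) ≠ 0) (hB : IsSF (σ := RingHom.id F) (-1) B) [FiniteDimensional F V]
    (hd : finrank F V = 2) (x y z : V) : B y z • x + B z x • y + B x y • z = 0 := by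
  let b := finBasisOfFinrankEq F V hd
  have k : ∀ v : V, ∃ p q : F, v = p • b 0 + q • b 1 := fun v =>
    ⟨_, _, by rw [← Fin.sum_univ_two (fun i => b.repr v i • b i), b.sum_repr]⟩
  obtain ⟨x0, x1, rfl⟩ := k x
  obtain ⟨y0, y1, rfl⟩ := k y
  obtain ⟨z0, z1, rfl⟩ := k z
  simp only [map_add, map_smul, LinearMap.add_apply, LinearMap.smul_apply, smul_eq_mul,
    self0 h2 hB, skew hB (b 0) (b 1)]
  module

theorem par (h2 : (2 : F) ≠ 0) (hB : IsSF (σ := RingHom.id F) (-1) B) [FiniteDimensional F V]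
    (hd : finrank F V = 2) {z f : V} (hf : f ≠ 0) (h : B z f = 0) : ∃ c : F, z = c • f := by
  obtain ⟨y, hy⟩ : ∃ y, B f y ≠ 0 := by
    by_contra! k
    exact hf (hB.nondeg f k)
  have := plane h2 hB hd z f y
  rw [h, zero_smul, add_zero] at this
  refine ⟨-(B y z / B f y), smul_right_injective V hy ?_⟩
  simp only [smul_smul]
  rw [eq_neg_of_add_eq_zero_left this, ← neg_smul]
  congr 1
  field_simp

theorem isUnit_of [FiniteDimensional F V] {h : End F V} (h1 : ∀ x, h x = x → x = 0)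
    (h2 : ∀ x, h x = -x → x = 0) : IsUnit (h ^ 2 - 1) := by
  rw [LinearMap.isUnit_iff_ker_eq_bot, LinearMap.ker_eq_bot']
  intro x hx
  have e : h (h x) = x := by simpa [sq, sub_eq_zero] using hx
  exact h2 x (eq_neg_of_add_eq_zero_left (h1 (h x + x) (by rw [map_add, e, add_comm])))

/-- The perturbation of `H` by a transformation supported on the isotropic plane `⟨a, b⟩`. -/
theorem perturb [FiniteDimensional F V] (h2 : (2 : F) ≠ 0)
    (hB : IsSF (σ := RingHom.id F) (-1) B) {g s H : End F V} {a b e₁ e₂ f : V} (hs : Anti B s)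
    (hH : Inv B H) (cj : ∀ x, H (s x) = s (g (H x))) (sa : s a = a) (sb : s b = -b)
    (ab : B a b = 0) (fix : ∀ x, H x = x → ∃ α β : F, x = α • e₁ + β • e₂) (h₁ : H e₁ = e₁)
    (h₂ : H e₂ = e₂) (s₁ : s e₁ = e₁) (s₂ : s e₂ = -e₂) (n₁ : B e₁ b ≠ 0) (n₂ : B e₂ a ≠ 0)
    (hf : H f = -f) (neg : ∀ x, H x = -x → ∃ c : F, x = c • f) (af : B a f ≠ 0)
    (star : ∀ z, H z + z = H (B b f • a - B a f • b) →
      B z (B b f • a - B a f • b) ≠ 2 * B a f * B b f) :
    ∃ h : End F V, Inv B h ∧ (∀ x, h (s x) = s (g (h x))) ∧ IsUnit (h ^ 2 - 1) := by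
  let c : End F V := 1 + ((B.flip b).smulRight a + (B.flip a).smulRight b)
  have hc : ∀ x, c x = x + (B x b • a + B x a • b) := fun x => rfl
  have ba : B b a = 0 := by rw [skew hB, ab, neg_zero]
  have ae : B e₁ a = 0 := zero_of_neg h2 (by rw [← hs, s₁, sa])
  have be : B e₂ b = 0 := zero_of_neg h2 (by rw [← hs, s₂, sb]; simp)
  refine ⟨H * c, fun x y => ?_, fun x => ?_, isUnit_of (fun x hx => ?_) fun x hx => ?_⟩
  · rw [End.mul_apply, End.mul_apply, hH, hc, hc]
    simp only [map_add, map_smul, LinearMap.add_apply, LinearMap.smul_apply, smul_eq_mul,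
      self0 h2 hB, ab, ba, skew hB y a, skew hB y b]
    ring
  · have e1 : B (s x) b = B x b := by
      have := hs x b
      rw [sb, map_neg] at this
      exact neg_injective this
    have e2 : B (s x) a = -B x a := by rw [← hs, sa]
    rw [End.mul_apply, End.mul_apply, ← cj, hc, hc, e1, e2]
    simp [sa, sb]
  · rw [End.mul_apply] at hx
    have k : ∀ z, H z = z → B x b * B z a + B x a * B z b = 0 := fun z hz => by
      have := hH z (c x)
      rw [hx, hz, hc] at this
      simp only [map_add, map_smul, smul_eq_mul] at this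
      linear_combination -this
    have k1 : B x a = 0 := by simpa [ae, n₁] using k _ h₁
    have k2 : B x b = 0 := by simpa [be, n₂] using k _ h₂
    rw [hc, k1, k2, zero_smul, zero_smul, add_zero, add_zero] at hx
    obtain ⟨α, β, rfl⟩ := fix x hx
    have k3 : β = 0 := by simpa [ae, n₂] using k1
    have k4 : α = 0 := by simpa [be, n₁] using k2
    simp [k3, k4]
  · rw [End.mul_apply] at hx
    have k : B x b * B a f + B x a * B b f = 0 := by
      have := hH (c x) f
      rw [hx, hf, hc] at this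
      simp only [map_add, map_smul, map_neg, LinearMap.add_apply, LinearMap.smul_apply,
        LinearMap.neg_apply, neg_neg, smul_eq_mul] at this
      linear_combination -this
    by_cases w : B x a = 0
    · have u : B x b = 0 := by simpa [w, af] using k
      rw [hc, w, u, zero_smul, zero_smul, add_zero, add_zero] at hx
      obtain ⟨l, rfl⟩ := neg x hx
      have : l = 0 := by simpa [skew hB a f, af] using w
      simp [this]
    · refine (star ((B a f / B x a) • x) ?_ ?_).elim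
      · have e : B x b = -(B x a * B b f) / B a f := by
          field_simp
          linear_combination k
        rw [hc, e, map_add] at hx
        have e2 : H x + x = (B x a / B a f) • H (B b f • a - B a f • b) := by
          rw [← map_smul, show (B x a / B a f) • (B b f • a - B a f • b) =
            -((-(B x a * B b f) / B a f) • a + B x a • b) by
              rw [smul_sub, smul_smul, smul_smul, div_mul_cancel₀ _ af, neg_div, neg_smul,
                div_mul_eq_mul_div]
              abel, map_neg, eq_sub_of_add_eq hx]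
          abel
        rw [map_smul, ← smul_add, e2, smul_smul, show B a f / B x a * (B x a / B a f) = 1 by
          field_simp, one_smul]
      · simp only [map_sub, map_smul, LinearMap.smul_apply, smul_eq_mul]
        field_simp
        linear_combination -k

variable {W : Type*} [AddCommGroup W] [Module F W]

theorem main [FiniteDimensional F V] [FiniteDimensional F W] {B₀ : V →ₗ[F] V →ₗ[F] F}
    {B₁ : W →ₗ[F] W →ₗ[F] F} {g₀ s₀ h₀ : End F V} {g₁ s₁ h₁ : End F W} {a b e₁ e₂ : W} {f : V}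
    (h2 : (2 : F) ≠ 0) (hB₀ : IsSF (σ := RingHom.id F) (-1) B₀)
    (hB₁ : IsSF (σ := RingHom.id F) (-1) B₁) (hd : finrank F V = 2) (si : SI B₀ g₀ s₀)
    (hg : ∀ v, g₀ v = v → s₀ v = -v) (hi : Inv B₀ h₀) (cj : ∀ x, h₀ (s₀ x) = s₀ (g₀ (h₀ x)))
    (f0 : f ≠ 0) (hf : h₀ f = -f) (D : DD B₁ g₁ s₁ h₁ a b e₁ e₂) :
    ∃ h : End F (V × W), Inv (sumForm B₀ B₁) h ∧
      (∀ x, h (s₀.prodMap s₁ x) = s₀.prodMap s₁ (g₀.prodMap g₁ (h x))) ∧ IsUnit (h ^ 2 - 1) := by
  obtain ⟨v, v0, sv⟩ : ∃ v, v ≠ 0 ∧ s₀ v = v := by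
    by_contra! k
    have e : ∀ x, s₀ x = -x := fun x => eq_neg_of_add_eq_zero_left (by
      by_contra k1
      exact k _ k1 (by rw [map_add, si.sq, add_comm]))
    exact f0 (hB₀.nondeg f fun y => zero_of_neg h2 (by rw [← si.anti, e, e]; simp))
  obtain ⟨e, e0, se⟩ : ∃ e, e ≠ 0 ∧ s₀ e = -e := by
    by_contra! k
    have e : ∀ x, s₀ x = x := fun x => sub_eq_zero.1 (by
      by_contra k1
      exact k _ k1 (by rw [map_sub, si.sq, neg_sub]))
    exact f0 (hB₀.nondeg f fun y => zero_of_neg h2 (by rw [← si.anti, e, e]))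
  have hδ : B₀ v e ≠ 0 := fun k => by
    obtain ⟨c, rfl⟩ := par h2 hB₀ hd e0 k
    exact v0 (vzero h2 (by rw [← smul_neg, ← se, ← map_smul, sv]))
  have key : h₀ v ≠ -v := fun k => by
    have k1 := cj v
    rw [sv, k, map_neg, map_neg, neg_inj] at k1
    have k2 : g₀ v = v := by rw [← si.sq (g₀ v), ← k1, sv]
    exact v0 (vzero h2 (sv.symm.trans (hg v k2)))
  have p2 : ∀ x, h₀ x = x → x = 0 := fun x hx => by
    obtain ⟨c, rfl⟩ := par h2 hB₀ hd f0 (z := x)
      (zero_of_neg h2 (by rw [← map_neg, ← hf]; nth_rw 2 [← hx]; rw [hi]))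
    exact vzero h2 (by rw [← smul_neg, ← hf, ← map_smul, hx])
  have p3 : ∀ x, h₀ x = -x → ∃ c : F, x = c • f := fun x hx => by
    refine par h2 hB₀ hd f0 (by_contra fun k => key (smul_right_injective V k ?_))
    have k1 := plane h2 hB₀ hd v x f
    have k2 := congrArg h₀ k1
    simp only [map_add, map_smul, hx, hf, map_zero] at k2
    simp only
    linear_combination (norm := module) k1 + k2
  have hα : B₀ v f ≠ 0 := fun k => by
    obtain ⟨c, rfl⟩ := par h2 hB₀ hd f0 k
    exact key (by rw [map_smul, hf, smul_neg])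
  have P := fun (b' : V × W) => perturb (B := sumForm B₀ B₁) (g := g₀.prodMap g₁)
    (s := s₀.prodMap s₁) (H := h₀.prodMap h₁) (a := (v, a)) (b := b') (e₁ := (0, e₁))
    (e₂ := (0, e₂)) (f := (f, 0)) h2 (hB₀.sumForm hB₁)
    (fun x y => by simp [si.anti x.1, D.si.anti x.2, add_comm]) (hi.prodMap D.inv)
    (fun x => by simp [cj, D.cj]) (by simp [sv, D.sa])
  have Q := fun b' u1 u2 u3 => P b' u1 u2 (fun x hx => by
      obtain ⟨α, β, k⟩ := D.fix x.2 (congrArg Prod.snd hx)
      exact ⟨α, β, Prod.ext (by simpa using p2 x.1 (congrArg Prod.fst hx)) (by simpa using k)⟩)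
    (by simp [D.h₁]) (by simp [D.h₂]) (by simp [D.s₁]) (by simp [D.s₂]) u3
    (by simpa using D.n₂) (by simp [hf]) (fun x hx => by
      obtain ⟨c, k⟩ := p3 x.1 (congrArg Prod.fst hx)
      exact ⟨c, Prod.ext k (by simpa using D.neg x.2 (congrArg Prod.snd hx))⟩)
    (by simpa using hα)
  rcases D.alt with ⟨ab, hz⟩ | ⟨rfl, hγ⟩
  · refine Q (0, b) (by simp [D.sb]) (by simp [ab]) (by simpa using D.n₁) fun z k1 k2 => ?_
    have k3 : h₁ z.2 + z.2 = -(B₀ v f • h₁ b) := by simpa using congrArg Prod.snd k1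
    have k4 : B₁ z.2 b = 0 := by simpa [hα] using k2
    refine hz (-(B₀ v f)⁻¹ • z.2) ?_ (by simp [k4])
    rw [map_smul, ← smul_add, k3, neg_smul_neg, smul_smul, inv_mul_cancel₀ hα, one_smul]
  by_contra no
  have R : ∀ η : F, η ≠ 0 → ∃ z, h₀ z + z = -((η * B₁ a b * B₀ v e) • f) ∧
      B₀ v e * B₀ z f = -(2 * B₀ v f * B₀ e f) := fun η hη => by
    by_contra! k
    refine no (Q (-(η * B₁ a b) • e, (η * B₀ v e) • b) (by simp [se, D.sb]) (by simp; ring)
      (by simp [hη, hδ, D.n₁]) fun z k1 k2 => ?_)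
    have y1 : (sumForm B₀ B₁ (-(η * B₁ a b) • e, (η * B₀ v e) • b) (f, 0) • ((v, a) : V × W) -
        sumForm B₀ B₁ (v, a) (f, 0) • (-(η * B₁ a b) • e, (η * B₀ v e) • b)).1 =
        (η * B₁ a b * B₀ v e) • f := by
      have k3 := plane h2 hB₀ hd v e f
      rw [skew hB₀ v f] at k3
      simp only [sumForm_apply, map_zero, add_zero, map_smul, LinearMap.smul_apply, smul_eq_mul,
        Prod.fst_sub, Prod.smul_fst]
      linear_combination (norm := module) (-(η * B₁ a b)) • k3
    have b1 : sumForm B₀ B₁ (-(η * B₁ a b) • e, (η * B₀ v e) • b) (f, 0) =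
        -(η * B₁ a b) * B₀ e f := by simp
    have b2 : sumForm B₀ B₁ (v, a) (f, 0) = B₀ v f := by simp
    generalize sumForm B₀ B₁ (-(η * B₁ a b) • e, (η * B₀ v e) • b) (f, 0) • ((v, a) : V × W) -
        sumForm B₀ B₁ (v, a) (f, 0) • (-(η * B₁ a b) • e, (η * B₀ v e) • b) = y at y1 k1 k2
    have k3 : h₀ z.1 + z.1 = h₀ y.1 := congrArg Prod.fst k1
    have k4 : z.2 + z.2 = y.2 := congrArg Prod.snd k1
    rw [sumForm_apply, ← k4, map_add, self0 h2 hB₁, y1, b1, b2, map_smul, smul_eq_mul] at k2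
    refine k z.1 (by rw [k3, y1, map_smul, hf, smul_neg]) (mul_left_cancel₀ (mul_ne_zero hη hγ) ?_)
    linear_combination k2
  obtain ⟨z, z1, z2⟩ := R 1 one_ne_zero
  obtain ⟨z', z3, z4⟩ := R (-1) (neg_ne_zero.2 one_ne_zero)
  obtain ⟨c, hc⟩ := p3 (z + z') (by rw [map_add]; linear_combination (norm := module) z1 + z3)
  have k1 : B₀ z f + B₀ z' f = 0 := by
    rw [← LinearMap.add_apply, ← map_add, hc]
    simp [self0 h2 hB₀]
  have k2 : B₀ z f = 0 := (mul_eq_zero.1 (zero_of_neg h2 (by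
    linear_combination z2 - z4 + B₀ v e * k1) : B₀ v e * B₀ z f = 0)).resolve_left hδ
  obtain ⟨c', rfl⟩ := par h2 hB₀ hd f0 k2
  rw [map_smul, hf, smul_neg, neg_add_cancel, zero_eq_neg, smul_eq_zero] at z1
  simp [hγ, hδ, f0] at z1

theorem jobA : JobA.{u} := by
  intro F V W _ _ _ _ _ _ _ B₀ B₁ g₀ s₀ h₀ g₁ s₁ h₁ a b e₁ e₂ h2 hB₀ hB₁ hd si hg hi cj hu D
  by_cases k : ∀ x, h₀ x = -x → x = 0
  · obtain ⟨f, f1, f0⟩ : ∃ f, h₀ f = f ∧ f ≠ 0 := by
      by_contra! k1
      exact hu (isUnit_of k1 k)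
    exact main (h₀ := -h₀) h2 hB₀ hB₁ hd si hg (fun x y => by simpa using hi x y)
      (fun x => by simp [cj]) f0 (by simp [f1]) D
  · push Not at k
    obtain ⟨f, f1, f0⟩ := k
    exact main h2 hB₀ hB₁ hd si hg hi cj f0 f1 D

end H94.OrA
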