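import Cfsg.Agent.H96.Off
import Cfsg.Agent.H12.Basic
import Cfsg.Agent.H14.Quasi

/-! Best offenders on an invariant subgroup of a module: replacement theorem, small tools. -/

set_option autoImplicit false

namespace H94

open Subgroup Cfsg H96
open scoped commutatorElement

variable {G V : Type*} [Group G] [AddCommGroup V] [DistribMulAction G V] {p : ℕ}

/-- `|B| |C_U(B)|` -/
noncomputable def wu (U : AddSubgroup V) (B : Subgroup G) : ℕ :=
  Nat.card B * Nat.card ↥(U ⊓ fx V B)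

/-- best offender on `U` -/
def BOf (U : AddSubgroup V) (A : Subgroup G) : Prop := ∀ B ≤ A, wu U B ≤ wu U A

theorem add_card_inf_mul (D W : AddSubgroup V) :
    Nat.card ↥(D ⊓ W) * D.relIndex W = Nat.card W := by
  have h := (D.addSubgroupOf W).card_mul_index
  rw [← AddSubgroup.inf_addSubgroupOf_right,
    Nat.card_congr (AddSubgroup.addSubgroupOfEquivOfLe inf_le_right).toEquiv,
    AddSubgroup.inf_addSubgroupOf_right] at h
  exact h

theorem add_card_mul_card_le [Finite V] (A B : AddSubgroup V) :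
    Nat.card A * Nat.card B ≤ Nat.card ↥(A ⊔ B) * Nat.card ↥(A ⊓ B) := by
  have h1 := add_card_inf_mul B A
  have h2 := add_card_inf_mul B (A ⊔ B)
  rw [inf_eq_left.2 le_sup_right] at h2
  have h3 : B.relIndex A ≤ B.relIndex (A ⊔ B) :=
    AddSubgroup.relIndex_le_of_le_right le_sup_left (ridx_pos _ _).ne'
  rw [← h1, ← h2, inf_comm B A]
  calc _ = B.relIndex A * (Nat.card B * Nat.card ↥(A ⊓ B)) := by ring
    _ ≤ B.relIndex (A ⊔ B) * (Nat.card B * Nat.card ↥(A ⊓ B)) := Nat.mul_le_mul_right _ h3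
    _ = _ := by ring

variable {U W : AddSubgroup V} {A B K N : Subgroup G}

section count

variable [Finite G] [Finite V]

omit [Finite G] [Finite V] in
theorem wu_eq (h : B ≤ A) : wu U A = B.relIndex A * (Nat.card B * Nat.card ↥(U ⊓ fx V A)) ∧
    wu U B = (fx V A).relIndex (U ⊓ fx V B) * (Nat.card B * Nat.card ↥(U ⊓ fx V A)) := by
  have h1 := H12.card_mul_relIndex h
  have h2 := add_card_inf_mul (fx V A) (U ⊓ fx V B)
  rw [show fx V A ⊓ (U ⊓ fx V B) = U ⊓ fx V A by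
    rw [inf_left_comm, inf_eq_left.2 (fx_anti h)]] at h2
  rw [wu, wu, ← h1, ← h2]
  constructor <;> ring

theorem wu_le_iff (h : B ≤ A) : wu U B ≤ wu U A ↔ (fx V A).relIndex (U ⊓ fx V B) ≤ B.relIndex A := by
  rw [(wu_eq h).1, (wu_eq h).2]
  exact Nat.mul_le_mul_right_iff (Nat.mul_pos Nat.card_pos Nat.card_pos)

theorem BOf.mono (h : BOf U A) (hW : W ≤ U) : BOf W A := fun B hB =>
  (wu_le_iff hB).2 ((AddSubgroup.relIndex_le_of_le_right (inf_le_inf_right _ hW)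
    (ridx_pos _ _).ne').trans ((wu_le_iff hB).1 (h B hB)))

omit [Finite G] [Finite V] in
theorem BOf.of_eq (h : BOf U A) (hB : B ≤ A) (e : wu U B = wu U A) : BOf U B :=
  fun C hC => e ▸ h C (hC.trans hB)

theorem BOf.index_le (h : BOf U A) : (fx V A).relIndex U ≤ Nat.card A := by
  have := (wu_le_iff bot_le).1 (h ⊥ bot_le)
  rwa [fx_bot, inf_top_eq, relIndex_bot_left] at this

omit [Finite V] in
theorem BOf.compl (h : BOf U A) (hc : ∀ a ∈ A, ∀ b ∈ A, Commute a b) {C : Subgroup G}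
    (hC : C ≤ ctr G U) (h1 : C ⊓ B = ⊥) (h2 : C ⊔ B = A) : BOf U B := by
  have hB : B ≤ A := h2 ▸ le_sup_right
  have hCA : C ≤ A := h2 ▸ le_sup_left
  have key : ∀ X ≤ B, wu U (C ⊔ X) = Nat.card C * wu U X := fun X hX => by
    rw [wu, wu, fx_sup, ← inf_assoc, inf_eq_left.2 (le_fx_iff.2 hC), H12.card_sup_of_disjoint
      (H14.le_normalizer_of_commutator_eq_bot (H14.commutator_eq_bot_iff_comm.2 fun a ha b hb =>
        hc a (hCA ha) b (hB (hX hb)))) (eq_bot_iff.2 (h1 ▸ inf_le_inf_left C hX)), mul_assoc]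
  intro X hX
  have := h (C ⊔ X) (sup_le hCA (hX.trans hB))
  rw [← h2, key X hX, key B le_rfl] at this
  exact Nat.le_of_mul_le_mul_left this Nat.card_pos

theorem wu_inf {B₁ B₂ : Subgroup G} {M : ℕ} (h₁ : wu U B₁ = M) (h₂ : wu U B₂ = M)
    (hi : wu U (B₁ ⊓ B₂) ≤ M) (hs : wu U (B₁ ⊔ B₂) ≤ M) :
    wu U (B₁ ⊓ B₂) = M ∧ U ⊓ fx V (B₁ ⊓ B₂) = (U ⊓ fx V B₁) ⊔ (U ⊓ fx V B₂) := by
  have hM : 0 < M := h₁ ▸ Nat.mul_pos Nat.card_pos Nat.card_pos
  have e1 := H12.card_mul_card_le B₁ B₂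
  have e2 := add_card_mul_card_le (U ⊓ fx V B₁) (U ⊓ fx V B₂)
  have e3 : (U ⊓ fx V B₁) ⊓ (U ⊓ fx V B₂) = U ⊓ fx V (B₁ ⊔ B₂) := by
    rw [fx_sup, inf_inf_distrib_left U]
  have e4 : (U ⊓ fx V B₁) ⊔ (U ⊓ fx V B₂) ≤ U ⊓ fx V (B₁ ⊓ B₂) :=
    sup_le (inf_le_inf_left _ (fx_anti inf_le_left)) (inf_le_inf_left _ (fx_anti inf_le_right))
  have e5 := AddSubgroup.card_le_of_le e4
  rw [e3] at e2
  unfold wu at h₁ h₂ hi hs ⊢
  set a₁ := Nat.card B₁
  set a₂ := Nat.card B₂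
  set s := Nat.card (B₁ ⊔ B₂ : Subgroup G)
  set i := Nat.card (B₁ ⊓ B₂ : Subgroup G) with hi'
  set c₁ := Nat.card ↥(U ⊓ fx V B₁)
  set c₂ := Nat.card ↥(U ⊓ fx V B₂)
  set cs := Nat.card ↥(U ⊓ fx V (B₁ ⊔ B₂))
  set ci := Nat.card ↥(U ⊓ fx V (B₁ ⊓ B₂))
  set cj := Nat.card ↥((U ⊓ fx V B₁) ⊔ (U ⊓ fx V B₂))
  have k1 : M * M ≤ (s * cs) * (i * cj) := by
    calc M * M = (a₁ * a₂) * (c₁ * c₂) := by rw [← h₁]; nth_rw 2 [h₁]; rw [← h₂]; ring
      _ ≤ (s * i) * (cj * cs) := Nat.mul_le_mul e1 e2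
      _ = _ := by ring
  have k2 : i * cj ≤ i * ci := Nat.mul_le_mul_left _ e5
  have k3 : M ≤ i * cj := by
    by_contra hlt
    have : (s * cs) * (i * cj) < M * M :=
      lt_of_le_of_lt (Nat.mul_le_mul_right _ hs) (Nat.mul_lt_mul_of_pos_left (not_le.1 hlt) hM)
    omega
  refine ⟨by omega, (AddSubgroup.eq_of_le_of_card_ge e4 ?_).symm⟩
  have hipos : 0 < i := Nat.card_pos
  exact Nat.le_of_mul_le_mul_left (by omega : i * ci ≤ i * cj) hipos

/-- Timmesfeld's replacement theorem -/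
theorem BOf.replace (h : BOf U A) (hc : ∀ a ∈ A, ∀ b ∈ A, Commute a b) (hA : A ≤ nrm G U) :
    wu U (A ⊓ ctr G (cm U A)) = wu U A ∧
      U ⊓ fx V (A ⊓ ctr G (cm U A)) = cm U A ⊔ (U ⊓ fx V A) := by
  classical
  have := Fintype.ofFinite U
  let c : V → AddSubgroup V := fun u => AddSubgroup.closure {x | ∃ a ∈ A, x = dl a u}
  have e : cm U A = Finset.univ.sup fun u : U => c u := by
    rw [Finset.sup_univ_eq_iSup]
    refine le_antisymm (cm_le.2 fun a ha u hu => le_iSup (fun u : U => c u) ⟨u, hu⟩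
      (AddSubgroup.subset_closure ⟨a, ha, rfl⟩)) (iSup_le fun u => (AddSubgroup.closure_le _).2 ?_)
    rintro _ ⟨a, ha, rfl⟩
    exact dl_mem_cm ha u.2
  rw [e]
  refine Finset.sup_induction (p := fun X : AddSubgroup V =>
    wu U (A ⊓ ctr G X) = wu U A ∧ U ⊓ fx V (A ⊓ ctr G X) = X ⊔ (U ⊓ fx V A)) ?_ ?_ ?_
  · have : A ⊓ ctr G (⊥ : AddSubgroup V) = A :=
      inf_eq_left.2 fun a _ u hu => by rw [AddSubgroup.mem_bot.1 hu, smul_zero]
    rw [this, bot_sup_eq]; exact ⟨rfl, rfl⟩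
  · rintro X ⟨hX, hX'⟩ Y ⟨hY, hY'⟩
    have e : A ⊓ ctr G (X ⊔ Y) = (A ⊓ ctr G X) ⊓ (A ⊓ ctr G Y) := by
      rw [← inf_inf_distrib_left]
      congr 1
      exact le_antisymm (le_inf (ctr_anti le_sup_left) (ctr_anti le_sup_right))
        (le_fx_iff.1 (sup_le (le_fx_iff.2 inf_le_left) (le_fx_iff.2 inf_le_right)))
    obtain ⟨h1, h3⟩ := wu_inf hX hY (h _ (inf_le_left.trans inf_le_left))
      (h _ (sup_le inf_le_left inf_le_left))
    rw [e, h1, h3, hX', hY', sup_sup_distrib_right X Y]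
    exact ⟨rfl, rfl⟩
  · intro u _
    have hcU : c u ≤ U := (AddSubgroup.closure_le _).2 (by
      rintro _ ⟨a, ha, rfl⟩; exact dl_mem_of_nrm (hA ha) u.2)
    have h1 : (A ⊓ ctr G (c u)).relIndex A ≤ (fx V A).relIndex (c u ⊔ (U ⊓ fx V A)) := by
      refine relIndex_le_relIndex_of_map (fun a => dl a (u : V)) (fun a ha =>
        AddSubgroup.mem_sup_left (AddSubgroup.subset_closure ⟨a, ha, rfl⟩)) fun a ha b hb e => ?_
      have hm := mul_mem (inv_mem ha) hb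
      have h1 : dl (a⁻¹ * b) (u : V) ∈ fx V A := by
        have := neg_mem ((normalizer_le_nrm_fx (le_normalizer (inv_mem ha)) _).2 e)
        convert this using 1
        simp [dl_apply, mul_smul, smul_sub]
      refine ⟨hm, (le_fx_iff (A := zpowers _)).1 ((AddSubgroup.closure_le _).2 ?_) (mem_zpowers _)⟩
      rintro _ ⟨k, hk, rfl⟩
      refine (le_fx_iff (U := AddSubgroup.zmultiples _)).2 (zpowers_le.2 ?_)
        (AddSubgroup.mem_zmultiples _)
      rintro _ ⟨n, rfl⟩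
      rw [smul_comm, dl_eq_zero.1 ((dl_dl_comm (hc _ hm k hk) _).trans (dl_of_fx h1 hk))]
    have h2 : c u ⊔ (U ⊓ fx V A) ≤ U ⊓ fx V (A ⊓ ctr G (c u)) :=
      sup_le (le_inf hcU (le_fx_iff.2 inf_le_right)) (inf_le_inf_left _ (fx_anti inf_le_left))
    have h3 := AddSubgroup.relIndex_le_of_le_right (H := fx V A) h2 (ridx_pos _ _).ne'
    have h4 := (wu_le_iff inf_le_left).1 (h (A ⊓ ctr G (c u)) inf_le_left)
    have h5 := wu_eq (U := U) (inf_le_left : A ⊓ ctr G (c u) ≤ A)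
    refine ⟨by rw [h5.1, h5.2, le_antisymm h4 (h1.trans h3)],
      (AddSubgroup.eq_of_le_of_card_ge h2 ?_).symm⟩
    rw [← add_card_inf_mul (fx V A), ← add_card_inf_mul (fx V A) (c u ⊔ _)]
    refine Nat.mul_le_mul (AddSubgroup.card_le_of_le (le_inf inf_le_left ?_)) (h4.trans h1)
    exact le_sup_of_le_right (le_inf (inf_le_right.trans inf_le_left) inf_le_left)

omit [Finite G] in
theorem cm_lt [Fact p.Prime] (h0 : ∀ v : V, p • v = 0) (hA : IsPGroup p A) (h : A ≤ nrm G U)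
    (hU : U ≠ ⊥) : cm U A < U := by
  obtain ⟨D, hD, hmax⟩ := Set.exists_max_image {D : AddSubgroup V | D < U ∧ A ≤ nrm G D}
    (fun D => Nat.card D) (Set.toFinite _) ⟨⊥, bot_lt_iff_ne_bot.2 hU, by rw [nrm_bot]; exact le_top⟩
  obtain ⟨w, hw, hwD, hx⟩ := exists_fixed_mod h0 hA hD.2 h hD.1.not_ge
  let D' : AddSubgroup V := U ⊓ ⨅ a : A, D.comap (dl (a : G))
  have hm : ∀ v, v ∈ D' ↔ v ∈ U ∧ ∀ a ∈ A, dl a v ∈ D := fun v => by
    simp [D', AddSubgroup.mem_iInf]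
  have h1 : D < D' := lt_of_le_of_ne (fun v hv => (hm v).2 ⟨hD.1.le hv, fun a ha =>
    dl_mem_of_nrm (hD.2 ha) hv⟩) fun e => hwD (e ▸ (hm w).2 ⟨hw, hx⟩)
  have h2 : D' = U := by
    by_contra hne
    have := hmax D' ⟨lt_of_le_of_ne inf_le_left hne,
      le_nrm_of_dl fun a ha v hv => h1.le (((hm v).1 hv).2 a ha)⟩
    exact h1.ne (AddSubgroup.eq_of_le_of_card_ge h1.le this)
  exact lt_of_le_of_lt (cm_le.2 fun a ha u hu => ((hm u).1 (h2 ▸ hu)).2 a ha) hD.1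

end count

/-! ### Group-theoretic tools -/

theorem le_normalizer_of_conj {X : Subgroup G} (h : ∀ g ∈ X, ∀ n ∈ N, g * n * g⁻¹ ∈ N) :
    X ≤ normalizer (N : Set G) := fun g hg =>
  mem_normalizer_iff.2 fun n => ⟨h g hg n, fun k => by simpa [mul_assoc] using h _ (inv_mem hg) _ k⟩

theorem nrm_le_normalizer_ctr : nrm G U ≤ normalizer (ctr G U : Set G) :=
  le_normalizer_of_conj fun g hg n hn u hu => by
    rw [mul_smul, mul_smul, hn _ (smul_mem_of_nrm (inv_mem hg) hu), smul_inv_smul]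

theorem nrm_le_normalizer_stb : nrm G U ⊓ nrm G W ≤ normalizer (stb G U W : Set G) :=
  le_normalizer_of_conj fun g hg n hn => ⟨mul_mem (mul_mem hg.2 hn.1) (inv_mem hg.2), fun u hu => by
    rw [dl_conj]
    exact smul_mem_of_nrm hg.2 (hn.2 _ (smul_mem_of_nrm (inv_mem hg.1) hu))⟩

theorem mem_stb_of_dl [Finite G] (hW : W ≤ U) {g : G} (h : ∀ u ∈ U, dl g u ∈ W) : g ∈ stb G U W :=
  ⟨mem_nrm_of_dl fun u hu => h u (hW hu), h⟩

theorem comm_mem_ctr {x y : G} (h : ∀ u ∈ U, x⁻¹ • y⁻¹ • u = y⁻¹ • x⁻¹ • u) : ⁅x, y⁆ ∈ ctr G U :=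
  fun u hu => by rw [commutatorElement_def, mul_smul, mul_smul, mul_smul, h u hu]; simp

theorem ctr_of_comm (hK : ⁅K, K⁆ = K) (h : ∀ x ∈ K, ∀ y ∈ K, ∀ u ∈ U, x • y • u = y • x • u) :
    K ≤ ctr G U :=
  hK.ge.trans (commutator_le.2 fun x hx y hy => comm_mem_ctr (h _ (inv_mem hx) _ (inv_mem hy)))

theorem perfect_fix (hK : ⁅K, K⁆ = K) (h : ∀ x ∈ K, ∀ u ∈ U, dl x u ∈ fx V K) : K ≤ ctr G U :=
  ctr_of_comm hK fun x hx y hy u hu => by
    rw [smul_eq_add_dl y u, smul_eq_add_dl x u, smul_add, smul_add, h y hy u hu x hx,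
      h x hx u hu y hy, smul_eq_add_dl y u, smul_eq_add_dl x u]
    abel

theorem exists_noncentral (hK : ⁅K, K⁆ = K) {t : G} (ht : t ∈ normalizer (K : Set G))
    (hc : t ∉ centralizer (K : Set G)) : ∃ x ∈ K, t * x * t⁻¹ * x⁻¹ ∉ centralizer (K : Set G) := by
  by_contra h
  push Not at h
  refine hc fun z hz => mem_centralizer_singleton_iff.1
    (hK.ge.trans (commutator_le.2 fun x hx y hy => mem_centralizer_singleton_iff.2 ?_) hz)
  have key : ∀ {f g x y : G}, Commute f x → Commute f (g * y) → Commute g x → Commute g y →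
      ⁅f * x, g * y⁆ = ⁅x, y⁆ := fun {f g x y} h1 h2 h3 h4 => by
    rw [commutatorElement_def, commutatorElement_def, mul_inv_rev f, mul_inv_rev g,
      show f * x * (g * y) * (x⁻¹ * f⁻¹) = f * (x * (g * y) * x⁻¹) * f⁻¹ by group,
      ((h1.mul_right h2).mul_right h1.inv_right).eq, mul_inv_cancel_right,
      show x * (g * y) * x⁻¹ * (y⁻¹ * g⁻¹) = (x * g) * (y * x⁻¹ * y⁻¹) * g⁻¹ by group, ← h3.eq,
      mul_assoc g x, ((h3.mul_right ((h4.mul_right h3.inv_right).mul_right h4.inv_right))).eq]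
    group
  have hy' := (mem_normalizer_iff.1 ht y).1 hy
  have := key (f := t * x * t⁻¹ * x⁻¹) (g := t * y * t⁻¹ * y⁻¹) (h x hx x hx).symm
    (by rw [inv_mul_cancel_right]; exact (h x hx _ hy').symm) (h y hy x hx).symm (h y hy y hy).symm
  rw [inv_mul_cancel_right, inv_mul_cancel_right, ← conjugate_commutatorElement,
    mul_inv_eq_iff_eq_mul] at this
  exact this.symm

theorem le_of_mul_mem (hK : IsQuasisimple K) (hN : K ≤ normalizer (N : Set G)) {x r : G}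
    (hx : x ∈ K) (hx' : x ∉ centralizer (K : Set G)) (hr : r ∈ centralizer (K : Set G))
    (h : x * r ∈ N) : K ≤ N := by
  obtain ⟨y, hy, hy'⟩ := exists_noncentral (H14.quasi_sub_perfect hK) (le_normalizer hx) hx'
  refine (H14.quasi_sub_normalized hK hN).resolve_right fun k => hy' ?_
  have h1 : x * y * x⁻¹ * y⁻¹ ∈ N := by
    have := mul_mem h ((mem_normalizer_iff.1 (hN hy) _).1 (inv_mem h))
    rwa [show x * r * (y * (x * r)⁻¹ * y⁻¹) = x * (r * y) * r⁻¹ * x⁻¹ * y⁻¹ by group, ← hr y hy,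
      show x * (y * r) * r⁻¹ = x * y by group] at this
  exact fun z hz => (H14.commutator_eq_bot_iff_comm.1 k _
    ⟨h1, K.mul_mem (K.mul_mem (K.mul_mem hx hy) (K.inv_mem hx)) (K.inv_mem hy)⟩ z hz).symm

theorem hom_mem_of_comm {X : Type*} [Group X] (hX : IsQuasisimple X) (d : X →* G)
    (h : ∀ x y, ⁅d x, d y⁆ ∈ N) (x : X) : d x ∈ N := by
  have : commutator X ≤ N.comap d := commutator_le.2 fun x _ y _ => by
    rw [mem_comap, map_commutatorElement]; exact h x y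
  exact this ((H14.quasi_perfect hX).commutator_eq_top.ge (mem_top x))

theorem hom_mem_of_noncentral {X : Type*} [Group X] (hX : IsQuasisimple X) (d : X →* G)
    (h : ∀ x, d x ∈ normalizer (N : Set G)) {x₀ : X} (h0 : x₀ ∉ center X) (h1 : d x₀ ∈ N) (x : X) :
    d x ∈ N := by
  haveI : (N.comap d).Normal := ⟨fun n hn g => by
    rw [mem_comap, map_mul, map_mul, map_inv]; exact (mem_normalizer_iff.1 (h g) _).1 hn⟩
  exact ((H14.quasi_normal hX (N.comap d)).resolve_right fun k => h0 (k h1)).ge (mem_top x)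

theorem nrm_map_dl [Finite G] {g a : G} (hg : g ∈ nrm G U) (h : Commute g a) :
    g ∈ nrm G (U.map (dl a)) :=
  mem_nrm_of_smul (by
    rintro _ ⟨u, hu, rfl⟩
    exact ⟨_, smul_mem_of_nrm hg hu, (dl_comm_of_commute h u).symm⟩)

/-- the product of the conjugates of `x` under `1, a, …, a ^ (n - 1)` -/
def dg (a x : G) (n : ℕ) : G := (x * a) ^ n * (a ^ n)⁻¹

theorem dg_zero (a x : G) : dg a x 0 = 1 := by simp [dg]

theorem dg_succ (a x : G) (n : ℕ) : dg a x (n + 1) = dg a x n * (a ^ n * x * (a ^ n)⁻¹) := by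
  simp only [dg, pow_succ]; group

theorem dg_succ' (a x : G) (n : ℕ) : dg a x (n + 1) = x * (a * dg a x n * a⁻¹) := by
  rw [dg, dg, pow_succ' (x * a), pow_succ' a]; group

theorem dg_mem {a x : G} {n : ℕ} (h : ∀ j < n, a ^ j * x * (a ^ j)⁻¹ ∈ N) : dg a x n ∈ N := by
  induction n with
  | zero => rw [dg_zero]; exact one_mem _
  | succ n ih => rw [dg_succ]; exact mul_mem (ih fun j hj => h j (by omega)) (h n (by omega))

theorem dg_tail_mem {a x : G} {n : ℕ} (hn : 0 < n)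
    (h : ∀ j, 0 < j → j < n → a ^ j * x * (a ^ j)⁻¹ ∈ N) : x⁻¹ * dg a x n ∈ N := by
  obtain ⟨n, rfl⟩ : ∃ m, n = m + 1 := ⟨n - 1, by omega⟩
  rw [dg_succ', inv_mul_cancel_left]
  refine dg_mem (N := N.comap (MulAut.conj a).toMonoidHom) fun j hj => ?_
  have := h (j + 1) (by omega) (by omega)
  rw [pow_succ'] at this
  simpa [mul_assoc] using this

theorem dg_conj {a t : G} (h : Commute t a) (x : G) (n : ℕ) :
    t * dg a x n * t⁻¹ = dg a (t * x * t⁻¹) n := by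
  induction n with
  | zero => simp [dg_zero]
  | succ n ih =>
    rw [dg_succ, dg_succ, ← ih, show a ^ n * (t * x * t⁻¹) * (a ^ n)⁻¹ =
      (a ^ n * t) * x * (a ^ n * t)⁻¹ by group, ← (h.pow_right n).eq]
    group

end H94
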