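import Cfsg.Agent.H94.PGV1
import Cfsg.Agent.H9.GenExtra
import Cfsg.Agent.H75.Comp
import Cfsg.Agent.H14.Comp

/-! The P(G,V)-theorem: best offenders normalize components. -/

set_option autoImplicit false

namespace H94

open Subgroup Cfsg H96
open scoped commutatorElement

theorem dual_count {F M ι : Type*} [Field F] [Finite F] [AddCommGroup M] [Module F M] [Finite M]
    [Finite ι] (C : ι → Submodule F M) (D : Submodule F M) (hD : ∀ i, D ≤ C i)
    (h : ∀ i j, i ≠ j → C i ⊔ C j = ⊤) (h3 : ∀ i, 2 < Nat.card (M ⧸ C i)) :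
    2 * Nat.card ι < Nat.card (M ⧸ D) := by
  classical
  have card_ann : ∀ W : Submodule F M, Nat.card W.dualAnnihilator = Nat.card (M ⧸ W) := fun W => by
    rw [← Nat.card_congr W.dualQuotEquivDualAnnihilator.toEquiv,
      Module.natCard_eq_pow_finrank (K := F), Subspace.dual_finrank_eq,
      ← Module.natCard_eq_pow_finrank]
  haveI : Finite (Module.Dual F M) := DFunLike.finite _
  haveI := Fintype.ofFinite (Module.Dual F M)
  haveI := Fintype.ofFinite ι
  let s : Submodule F M → Finset (Module.Dual F M) := fun W =>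
    (Finset.univ.filter fun f => f ∈ W.dualAnnihilator).erase 0
  have hs : ∀ W, (s W).card + 1 = Nat.card (M ⧸ W) := fun W => by
    rw [Finset.card_erase_add_one (by simp), ← card_ann, Nat.card_eq_fintype_card,
      Fintype.card_subtype]
  have h1 : (Finset.univ.biUnion fun i => s (C i)).card ≤ (s D).card :=
    Finset.card_le_card (Finset.biUnion_subset.2 fun i _ => Finset.erase_subset_erase _ fun f hf => by
      simpa using Submodule.dualAnnihilator_anti (hD i) (by simpa using hf))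
  rw [Finset.card_biUnion fun i _ j _ hij => Finset.disjoint_left.2 fun f hi hj => by
    simp only [s, Finset.mem_erase, Finset.mem_filter] at hi hj
    have : f ∈ (C i ⊔ C j).dualAnnihilator := by
      rw [Submodule.dualAnnihilator_sup_eq]; exact ⟨hi.2.2, hj.2.2⟩
    rw [h i j hij, Submodule.dualAnnihilator_top] at this
    exact hi.1 this] at h1
  have h2 := Finset.card_nsmul_le_sum Finset.univ (fun i => (s (C i)).card) 2 fun i _ => by
    have := hs (C i); have := h3 i; omega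
  rw [Finset.card_univ, smul_eq_mul, ← Nat.card_eq_fintype_card] at h2
  have := hs D
  omega

theorem add_dual_count {V ι : Type*} [AddCommGroup V] [Finite V] [Finite ι] {p : ℕ} [Fact p.Prime]
    (h0 : ∀ v : V, p • v = 0) (U : AddSubgroup V) (C : ι → AddSubgroup V) (D : AddSubgroup V)
    (hD : ∀ i, D ≤ C i) (h : ∀ i j, i ≠ j → U ⊓ C i ⊔ U ⊓ C j = U)
    (h3 : ∀ i, 2 < (C i).relIndex U) : 2 * Nat.card ι < D.relIndex U := by
  letI : Module (ZMod p) U := AddCommGroup.zmodModule fun v => Subtype.ext (h0 v)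
  refine dual_count (F := ZMod p) (fun i => ((C i).addSubgroupOf U).toZModSubmodule p)
    ((D.addSubgroupOf U).toZModSubmodule p) (fun i => AddSubgroup.comap_mono (hD i))
    (fun i j hij => ?_) h3
  rw [← SupHomClass.map_sup, ← AddSubgroup.inf_addSubgroupOf_left,
    ← AddSubgroup.inf_addSubgroupOf_left (C j), ← AddSubgroup.addSubgroupOf_sup inf_le_left inf_le_left,
    h i j hij, AddSubgroup.addSubgroupOf_self]
  rfl

variable {G V : Type*} [Group G] [AddCommGroup V] [DistribMulAction G V] {p : ℕ}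

theorem smul_comm_of_card_le [Fact p.Prime] [Finite V] (h0 : ∀ v : V, p • v = 0)
    {W : AddSubgroup V} (hW : Nat.card W ≤ p) {g k : G} (hg : g ∈ nrm G W) (hk : k ∈ nrm G W)
    {v : V} (hv : v ∈ W) : g • k • v = k • g • v := by
  by_cases h : v = 0
  · simp [h]
  have e : AddSubgroup.zmultiples v = W := AddSubgroup.eq_of_le_of_card_ge
    (AddSubgroup.zmultiples_le_of_mem hv) (by
      rw [Nat.card_zmultiples, addOrderOf_eq_prime (h0 v) h]; exact hW)
  obtain ⟨m, hm⟩ := e.ge (smul_mem_of_nrm hg hv)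
  obtain ⟨n, hn⟩ := e.ge (smul_mem_of_nrm hk hv)
  simp only at hm hn
  rw [← hn, smul_comm g n, ← hm, smul_comm k m, ← hn, smul_comm m n]

/-- the hypotheses of the induction -/
structure PCtx (p : ℕ) (U : AddSubgroup V) (A K : Subgroup G) : Prop where
  h0 : ∀ v : V, p • v = 0
  ea : IsElementaryAbelian p A
  hA : A ≤ nrm G U
  hK : K ≤ nrm G U
  q : IsQuasisimple K
  ne : ¬ K ≤ ctr G U
  alt : ∀ a ∈ A, a ∉ normalizer (K : Set G) → ∀ x ∈ K, a * x * a⁻¹ ∈ centralizer (K : Set G)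

/-- `K` centralizes the proper invariant subgroups -/
def PMin (U : AddSubgroup V) (A K : Subgroup G) : Prop :=
  ∀ W < U, A ≤ nrm G W → K ≤ nrm G W → K ≤ ctr G W

/-- the diagonals centralize the commutators -/
def PDg (p : ℕ) (U : AddSubgroup V) (A K : Subgroup G) : Prop :=
  ∀ a ∈ A, a ∉ normalizer (K : Set G) → ∀ x ∈ K, dg a x p ∈ ctr G (U.map (dl a))

namespace PCtx

variable {U : AddSubgroup V} {A K : Subgroup G} (h : PCtx p U A K) {a b c g k x y : G}
include h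

theorem comm (ha : a ∈ A) (hb : b ∈ A) : Commute a b := ea_commute h.ea ha hb

theorem perf : ⁅K, K⁆ = K := H14.quasi_sub_perfect h.q

theorem ne_bot : U ≠ ⊥ := fun e => h.ne fun _ _ u hu => by
  rw [AddSubgroup.mem_bot.1 (e.le hu), smul_zero]

theorem exists_nc : ∃ x ∈ K, x ∉ centralizer (K : Set G) := by
  by_contra k
  push Not at k
  exact H14.quasi_sub_commutator_ne_bot h.q (commutator_eq_bot_iff_le_centralizer.2 k)

theorem mono {B : Subgroup G} (hB : B ≤ A) : PCtx p U B K :=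
  ⟨h.h0, ea_mono h.ea hB, hB.trans h.hA, h.hK, h.q, h.ne, fun a ha => h.alt a (hB ha)⟩

theorem ctr_nrm (hc : c ∈ A) (hU : c ∈ ctr G U) : c ∈ normalizer (K : Set G) := by
  by_contra hn
  refine h.ne (ctr_of_comm h.perf fun x hx y hy u hu => ?_)
  have e : ∀ w ∈ U, (c * y * c⁻¹) • w = y • w := fun w hw => by
    rw [mul_smul, mul_smul, inv_mem hU w hw, hU _ (smul_mem_of_nrm (h.hK hy) hw)]
  rw [← e u hu, ← mul_smul, h.alt c hc hn y hy x hx, mul_smul, e _ (smul_mem_of_nrm (h.hK hx) hu)]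

theorem comm_conj (hg : g ∈ A) (hk : k ∈ A) (hn : k⁻¹ * g ∉ normalizer (K : Set G)) (hx : x ∈ K)
    (hy : y ∈ K) : Commute (g * x * g⁻¹) (k * y * k⁻¹) := by
  have := (Commute.symm (h.alt _ (mul_mem (inv_mem hk) hg) hn x hx y hy)).map (MulAut.conj k)
  simpa [mul_assoc] using this

theorem dg_nrm (ha : a ∈ A) (hx : x ∈ K) (n : ℕ) : dg a x n ∈ nrm G U :=
  dg_mem fun j _ => mul_mem (mul_mem (h.hA (pow_mem ha j)) (h.hK hx)) (inv_mem (h.hA (pow_mem ha j)))

variable [hp : Fact p.Prime]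

theorem dvd_of_pow_mem (ha : a ∈ A) (hn : a ∉ normalizer (K : Set G)) {j : ℕ}
    (hj : a ^ j ∈ normalizer (K : Set G)) : p ∣ j := by
  by_contra hd
  obtain ⟨m, hm⟩ := exists_pow_eq_self_of_coprime (x := a) (n := j)
    ((hp.out.coprime_iff_not_dvd.2 hd).symm.coprime_dvd_right (orderOf_dvd_of_pow_eq_one (h.ea.2 a ha)))
  exact hn (hm ▸ pow_mem hj m)

theorem pow_not_mem (ha : a ∈ A) (hn : a ∉ normalizer (K : Set G)) {j : ℕ} (h1 : 0 < j)
    (h2 : j < p) : a ^ j ∉ normalizer (K : Set G) :=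
  fun k => absurd (Nat.le_of_dvd h1 (h.dvd_of_pow_mem ha hn k)) (by omega)

theorem dg_mul (ha : a ∈ A) (hn : a ∉ normalizer (K : Set G)) (hx : x ∈ K) (hy : y ∈ K) {n : ℕ}
    (h1 : n ≤ p) : dg a (x * y) n = dg a x n * dg a y n := by
  induction n with
  | zero => simp [dg_zero]
  | succ n ih =>
    have : dg a y n ∈ centralizer {a ^ n * x * (a ^ n)⁻¹} := dg_mem fun j hj =>
      mem_centralizer_singleton_iff.2 (h.comm_conj (pow_mem ha n) (pow_mem ha j) (by
        rw [← (Nat.add_sub_cancel' hj.le), pow_add, inv_mul_cancel_left]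
        exact h.pow_not_mem ha hn (by omega) (by omega)) hx hy).symm
    rw [dg_succ, dg_succ, dg_succ, ih (by omega), mul_assoc _ _ (dg a y n * _),
      ← mul_assoc _ (dg a y n), ← mem_centralizer_singleton_iff.1 this]
    group

/-- the diagonal homomorphism -/
def dh (ha : a ∈ A) (hn : a ∉ normalizer (K : Set G)) : K →* G :=
  MonoidHom.mk' (fun x => dg a x p) fun x y => h.dg_mul ha hn x.2 y.2 le_rfl

theorem tail_cent (ha : a ∈ A) (hn : a ∉ normalizer (K : Set G)) (hx : x ∈ K) :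
    x⁻¹ * dg a x p ∈ centralizer (K : Set G) :=
  dg_tail_mem hp.out.pos fun j h1 h2 => h.alt _ (pow_mem ha j) (h.pow_not_mem ha hn h1 h2) x hx

theorem dg_comm (ha : a ∈ A) (hn : a ∉ normalizer (K : Set G)) (hx : x ∈ K) :
    Commute (dg a x p) a := by
  have h1 := h.tail_cent ha hn hx x hx
  rw [mul_inv_cancel_left, dg, h.ea.2 a ha, inv_one, mul_one] at h1
  rw [dg, h.ea.2 a ha, inv_one, mul_one]
  have h2 : Commute ((x * a) ^ p) x := by
    rw [Commute, SemiconjBy, ← inv_mul_eq_iff_eq_mul, ← mul_assoc, ← h1]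
  simpa using h2.inv_right.mul_right (Commute.pow_self (x * a) p)

variable [Finite G]

theorem dg_nrmW (ha : a ∈ A) (hn : a ∉ normalizer (K : Set G)) (hx : x ∈ K) :
    dg a x p ∈ normalizer (ctr G (U.map (dl a)) : Set G) :=
  nrm_le_normalizer_ctr (nrm_map_dl (h.dg_nrm ha hx p) (h.dg_comm ha hn hx))

theorem step5a (hD : PDg p U A K) (ha : a ∈ A) (hn : a ∉ normalizer (K : Set G)) (hb : b ∈ A)
    (hbn : b ∉ normalizer (K : Set G))
    (h1 : ∀ j, b * a ^ j ∈ normalizer (K : Set G) → b * a ^ j = 1)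
    (h2 : a⁻¹ * b ∉ normalizer (K : Set G)) (hy : y ∈ K) : b * y * b⁻¹ ∈ ctr G (cm U K) := by
  obtain ⟨x, hx, hxc⟩ := h.exists_nc
  let c := x * (a * x⁻¹ * a⁻¹)
  have k1 : K ≤ (ctr G (U.map (dl c))).comap (MulAut.conj b).toMonoidHom := by
    refine le_of_mul_mem h.q (le_normalizer_of_conj fun g hg n hn' => ?_) hx hxc
      (h.tail_cent ha hn hx) ?_
    · have := (mem_normalizer_iff.1 (nrm_le_normalizer_ctr (nrm_map_dl (a := c) (mul_mem (mul_mem
        (h.hA hb) (h.hK hg)) (inv_mem (h.hA hb))) ((Commute.symm (h.alt b hb hbn g hg x hx)).mul_right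
          (h.comm_conj hb ha h2 hg (inv_mem hx))))) _).1 hn'
      simpa [mul_assoc] using this
    rw [mul_inv_cancel_left]
    have e1 : Commute (b * dg a x p * b⁻¹) x := mem_centralizer_singleton_iff.1
      (dg_mem (N := (centralizer {x}).comap (MulAut.conj b).toMonoidHom) fun j _ => by
        refine mem_centralizer_singleton_iff.2 ?_
        show b * (a ^ j * x * (a ^ j)⁻¹) * b⁻¹ * x = x * (b * (a ^ j * x * (a ^ j)⁻¹) * b⁻¹)
        rw [show b * (a ^ j * x * (a ^ j)⁻¹) * b⁻¹ = b * a ^ j * x * (b * a ^ j)⁻¹ by group]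
        by_cases k : b * a ^ j ∈ normalizer (K : Set G)
        · simp [h1 j k]
        · exact (h.alt _ (mul_mem hb (pow_mem ha j)) k x hx x hx).symm)
    have e2 : b * dg a x p * b⁻¹ ∈ ctr G (U.map (dl a)) := (mem_normalizer_iff.1
      (nrm_le_normalizer_ctr (nrm_map_dl (h.hA hb) (h.comm hb ha))) _).1 (hD a ha hn x hx)
    rintro _ ⟨u, hu, rfl⟩
    have u1 := smul_mem_of_nrm (inv_mem (h.hA ha)) hu
    have u2 := smul_mem_of_nrm (inv_mem (h.hK hx)) u1
    have e3 : dl c u = x • dl a (x⁻¹ • a⁻¹ • u) - dl a (a⁻¹ • u) := by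
      simp [c, dl_apply, mul_smul, smul_sub]
    show (b * dg a x p * b⁻¹) • _ = _
    rw [e3, smul_sub, ← mul_smul, e1.eq, mul_smul, e2 _ ⟨_, u2, rfl⟩, e2 _ ⟨_, u1, rfl⟩]
  let U₀ := U ⊓ fx V (K.map (MulAut.conj b).toMonoidHom)
  have k2 : K ≤ nrm G U₀ := le_nrm_of_smul fun g hg u hu => ⟨smul_mem_of_nrm (h.hK hg) hu.1, by
    rintro _ ⟨z, hz, rfl⟩
    show (b * z * b⁻¹) • _ = _
    rw [← mul_smul, ← h.alt b hb hbn z hz g hg, mul_smul]
    exact congrArg _ (hu.2 _ ⟨z, hz, rfl⟩)⟩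
  have hc : c ∈ nrm G U :=
    mul_mem (h.hK hx) (mul_mem (mul_mem (h.hA ha) (inv_mem (h.hK hx))) (inv_mem (h.hA ha)))
  have k3 : K ≤ stb G U U₀ := le_of_mul_mem h.q ((le_inf h.hK k2).trans nrm_le_normalizer_stb) hx hxc
    (h.alt a ha hn _ (inv_mem hx)) (mem_stb_of_dl inf_le_left fun u hu => ⟨dl_mem_of_nrm hc hu, by
      rintro _ ⟨z, hz, rfl⟩
      exact k1 hz _ ⟨u, hu, rfl⟩⟩)
  exact fun u hu => (cm_le.2 (fun z hz u hu => (k3 hz).2 u hu) hu).2 _ ⟨y, hy, rfl⟩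

omit [Finite G] in
theorem step5b (hD : PDg p U A K) (ha : a ∈ A) (hn : a ∉ normalizer (K : Set G))
    (h1 : ∀ b ∈ A, b ∉ normalizer (K : Set G) → ∀ y ∈ K, b * y * b⁻¹ ∈ ctr G (cm U K)) : False := by
  have hW : K ≤ nrm G (cm U K) := (le_inf h.hK le_normalizer).trans nrm_cm
  have hWU : cm U K ≤ U := cm_le.2 fun z hz u hu => dl_mem_of_nrm (h.hK hz) hu
  have k : K ≤ ctr G (cm U K) := perfect_fix h.perf fun y hy u hu z hz => by
    have e1 : dg a y p • u = y • u := by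
      rw [← mul_inv_cancel_left y (dg a y p), mul_smul, dg_tail_mem (N := ctr G (cm U K)) hp.out.pos
        (fun j h2 h3 => h1 _ (pow_mem ha j) (h.pow_not_mem ha hn h2 h3) y hy) u hu]
    have e2 := hD a ha hn y hy _ ⟨u, hWU hu, rfl⟩
    rw [dl_apply, smul_sub, ← mul_smul, (h.dg_comm ha hn hy).eq, mul_smul, e1] at e2
    have e3 : a • dl y u = dl y u := by
      rw [dl_apply, smul_sub, sub_eq_sub_iff_sub_eq_sub, e2]
    have e4 := h1 _ (inv_mem ha) (fun k => hn (inv_mem_iff.1 k)) z hz _ (dl_mem_of_nrm (hW hy) hu)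
    rwa [inv_inv, mul_smul, mul_smul, e3, inv_smul_eq_iff, e3] at e4
  exact h.ne (perfect_fix h.perf fun x hx u hu => le_fx_iff.2 k (dl_mem_cm hx hu))

variable [Finite V]

theorem cm_lt' : cm U A < U := cm_lt h.h0 (isPGroup_of_ea h.ea) h.hA h.ne_bot

theorem cent_ctr (hm : PMin U A K) (hc : c ∈ A) (hc' : c ∈ centralizer (K : Set G)) :
    c ∈ ctr G U := by
  by_contra hn
  have k1 := hm (U.map (dl c)) (lt_of_le_of_lt (by rintro _ ⟨u, hu, rfl⟩; exact dl_mem_cm hc hu)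
    h.cm_lt') (fun a ha => nrm_map_dl (h.hA ha) (h.comm ha hc))
    fun x hx => nrm_map_dl (h.hK hx) (hc' x hx)
  have k0 : ∀ g ∈ nrm G U, Commute g c → g ∈ nrm G (U ⊓ (dl c).ker) := fun g hg e =>
    mem_nrm_of_smul fun u hu => ⟨smul_mem_of_nrm hg hu.1, by
      show dl c (g • u) = 0
      rw [← dl_comm_of_commute e, show dl c u = 0 from hu.2, smul_zero]⟩
  have k2 := hm (U ⊓ (dl c).ker) (lt_of_le_of_ne inf_le_left fun e =>
    hn fun u hu => dl_eq_zero.1 (e.ge hu).2) (fun a ha => k0 a (h.hA ha) (h.comm ha hc))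
    fun x hx => k0 x (h.hK hx) (hc' x hx)
  exact h.ne (perfect_fix h.perf fun x hx u hu => le_fx_iff.2 k2 ⟨dl_mem_of_nrm (h.hK hx) hu,
    (dl_dl_comm (hc' x hx) u).symm.trans (dl_eq_zero.2 (k1 hx _ ⟨u, hu, rfl⟩))⟩)

theorem caseI (hm : PMin U A K) {t : G} (ht : t ∈ A) (h1 : t ∈ normalizer (K : Set G))
    (h2 : t ∉ ctr G U) (h3 : t ∈ ctr G (cm U A)) : PDg p U A K := by
  intro a ha hn x hx
  obtain ⟨y, hy, hy'⟩ := exists_noncentral h.perf h1 fun k => h2 (h.cent_ctr hm ht k)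
  have hty := (mem_normalizer_iff.1 h1 y).1 hy
  have h4 : t ∈ ctr G (U.map (dl a)) := ctr_anti (by rintro _ ⟨u, hu, rfl⟩; exact dl_mem_cm ha hu) h3
  refine hom_mem_of_noncentral h.q (h.dh ha hn) (fun z => h.dg_nrmW ha hn z.2)
    (x₀ := ⟨t * y * t⁻¹, hty⟩ * (⟨y, hy⟩ : K)⁻¹) (fun k => hy' fun z hz =>
      congrArg Subtype.val (mem_center_iff.1 k ⟨z, hz⟩)) ?_ ⟨x, hx⟩
  rw [map_mul, map_inv]
  show dg a (t * y * t⁻¹) p * (dg a y p)⁻¹ ∈ _
  rw [← dg_conj (h.comm ht ha), mul_assoc t, mul_assoc t]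
  exact mul_mem h4 ((mem_normalizer_iff.1 (h.dg_nrmW ha hn hy) _).1 (inv_mem h4))

theorem caseII (hB : BOf U A) (hq : A ≤ ctr G (cm U A))
    (h1 : ∀ b ∈ A, b ∈ normalizer (K : Set G) → b = 1) : PDg p U A K := by
  intro a ha hn x hx
  refine hom_mem_of_comm h.q (h.dh ha hn) (fun x y => ?_) ⟨x, hx⟩
  show ⁅dg a x p, dg a y p⁆ ∈ _
  by_cases hA : A ≤ zpowers a
  · have k : Nat.card (U.map (dl a)) ≤ p := by
      rw [← AddSubgroup.relIndex_ker]
      refine ((AddSubgroup.relIndex_le_of_le_left (fun v hv => dl_of_fx hv ha)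
        (ridx_pos _ _).ne').trans hB.index_le).trans ((card_le_of_le hA).trans ?_)
      rw [Nat.card_zpowers]
      exact orderOf_le_of_pow_eq_one hp.out.pos (h.ea.2 a ha)
    exact comm_mem_ctr fun u hu => smul_comm_of_card_le h.h0 k
      (inv_mem (nrm_map_dl (h.dg_nrm ha x.2 p) (h.dg_comm ha hn x.2)))
      (inv_mem (nrm_map_dl (h.dg_nrm ha y.2 p) (h.dg_comm ha hn y.2))) hu
  obtain ⟨t, ht, hta⟩ := SetLike.not_le_iff_exists.1 hA
  have h4 : t ∈ ctr G (U.map (dl a)) :=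
    ctr_anti (by rintro _ ⟨u, hu, rfl⟩; exact dl_mem_cm ha hu) (hq ht)
  have e1 : Commute (t * dg a x p * t⁻¹) (dg a y p) := mem_centralizer_singleton_iff.1
    (dg_mem (N := (centralizer {dg a y p}).comap (MulAut.conj t).toMonoidHom) fun j _ => by
      refine mem_centralizer_singleton_iff.2 (mem_centralizer_singleton_iff.1 (dg_mem fun i _ =>
        mem_centralizer_singleton_iff.2 ?_)).symm
      show _ * (t * (a ^ j * x * (a ^ j)⁻¹) * t⁻¹) = t * (a ^ j * x * (a ^ j)⁻¹) * t⁻¹ * _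
      rw [show t * (a ^ j * x * (a ^ j)⁻¹) * t⁻¹ = t * a ^ j * x * (t * a ^ j)⁻¹ by group]
      refine (h.comm_conj (mul_mem ht (pow_mem ha j)) (pow_mem ha i) (fun k => hta ?_) x.2 y.2).symm
      have := h1 _ (mul_mem (inv_mem (pow_mem ha i)) (mul_mem ht (pow_mem ha j))) k
      rw [inv_mul_eq_one, ← mul_inv_eq_iff_eq_mul] at this
      exact this ▸ mul_mem (pow_mem (mem_zpowers a) i) (inv_mem (pow_mem (mem_zpowers a) j)))
  have e2 := mul_mem ((mem_normalizer_iff.1 (h.dg_nrmW ha hn x.2) _).1 h4) (inv_mem h4)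
  have e3 := mul_mem e2 ((mem_normalizer_iff.1 (h.dg_nrmW ha hn y.2) _).1 (inv_mem e2))
  convert e3 using 1
  have := e1.inv_left.eq
  rw [← mul_inv_eq_iff_eq_mul] at this
  rw [commutatorElement_def]
  calc _ = dg a x p * ((t * dg a x p * t⁻¹)⁻¹ * dg a y p * (t * dg a x p * t⁻¹)⁻¹⁻¹) *
      (dg a x p)⁻¹ * (dg a y p)⁻¹ := by rw [this]
    _ = _ := by group

theorem step6a (hm : PMin U A K) (hD : PDg 2 U A K) (hp2 : p = 2)
    (h1 : ∀ a ∈ A, a ∉ normalizer (K : Set G) → ∀ b ∈ A, b ∉ normalizer (K : Set G) →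
      a⁻¹ * b ∈ normalizer (K : Set G)) (ha : a ∈ A) (hn : a ∉ normalizer (K : Set G))
    (hb : b ∈ A) (hbn : b ∉ normalizer (K : Set G)) (hab : a⁻¹ * b ∉ ctr G U) :
    U ⊓ (dl a).ker ⊔ U ⊓ (dl b).ker = U := by
  subst hp2
  set T := U ⊓ (dl a).ker ⊔ U ⊓ (dl b).ker
  have hT : T ≤ U := sup_le inf_le_left inf_le_left
  have e2 : ∀ a x : G, dg a x 2 = x * (a * x * a⁻¹) := fun a x => by
    simp [dg_succ, dg_zero]
  have k0 : ∀ a ∈ A, a ∉ normalizer (K : Set G) → U ⊓ (dl a).ker ≤ T → ∀ x ∈ K,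
      x * (a * x * a⁻¹) ∈ stb G U T := fun a ha hn hle x hx => by
    rw [← e2]
    exact mem_stb_of_dl hT fun u hu => hle ⟨dl_mem_of_nrm (h.dg_nrm ha hx 2) hu,
      (dl_dl_comm (h.dg_comm ha hn hx) u).symm.trans (dl_eq_zero.2 (hD a ha hn x hx _ ⟨u, hu, rfl⟩))⟩
  let L := closure {z | ∃ x ∈ K, z = x⁻¹ * (a⁻¹ * b) * x * (a⁻¹ * b)⁻¹}
  have hL : ∀ x ∈ K, x⁻¹ * (a⁻¹ * b) * x * (a⁻¹ * b)⁻¹ ∈ L := fun x hx => subset_closure ⟨x, hx, rfl⟩
  have k1 : L ≤ (stb G U T).comap (MulAut.conj a).toMonoidHom := (closure_le _).2 (by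
    rintro _ ⟨x, hx, rfl⟩
    have := mul_mem (inv_mem (k0 a ha hn le_sup_left x hx)) (k0 b hb hbn le_sup_right x hx)
    simpa [mul_assoc] using this)
  have k2 : K ≤ L := by
    obtain ⟨x, hx, hx'⟩ := exists_noncentral h.perf (h1 a ha hn b hb hbn)
      fun k => hab (h.cent_ctr hm (mul_mem (inv_mem ha) hb) k)
    refine le_of_mul_mem h.q (le_normalizer_of_conj fun y hy n hn' =>
      (closure_le (K := L.comap (MulAut.conj y).toMonoidHom)).2 ?_ hn')
      (mul_mem ((mem_normalizer_iff.1 (h1 a ha hn b hb hbn) x).1 hx) (inv_mem hx)) hx' (one_mem _) ?_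
    · rintro _ ⟨x, hx, rfl⟩
      simpa [mul_assoc] using mul_mem (hL _ (mul_mem hx (inv_mem hy))) (inv_mem (hL _ (inv_mem hy)))
    · simpa [mul_assoc] using inv_mem (hL _ (inv_mem hx))
  have k3 : ∀ x ∈ K, a * x * a⁻¹ ∈ stb G U T := fun x hx => k1 (k2 hx)
  have k4 : K ≤ stb G U T := fun x hx => by
    have := mul_mem (k0 a ha hn le_sup_left x hx) (inv_mem (k3 x hx))
    rwa [mul_inv_cancel_right] at this
  let E := closure {z | ∃ g ∈ A, ∃ x ∈ K, z = g * x * g⁻¹}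
  have hKE : K ≤ E := fun x hx => subset_closure ⟨1, one_mem _, x, hx, by simp⟩
  have hAE : A ≤ normalizer (E : Set G) := le_normalizer_of_conj fun y hy n hn' =>
    (closure_le (K := E.comap (MulAut.conj y).toMonoidHom)).2 (by
      rintro _ ⟨g, hg, x, hx, rfl⟩
      exact subset_closure ⟨y * g, mul_mem hy hg, x, hx, by simp [mul_assoc]⟩) hn'
  have hES : E ≤ stb G U T := (closure_le _).2 (by
    rintro _ ⟨g, hg, x, hx, rfl⟩
    by_cases k : g ∈ normalizer (K : Set G)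
    · exact k4 ((mem_normalizer_iff.1 k x).1 hx)
    · simpa [mul_assoc] using k3 _ ((mem_normalizer_iff.1 (h1 a ha hn g hg k) x).1 hx))
  by_contra hne
  have := hm (cm U E) (lt_of_le_of_lt (cm_le.2 fun z hz => (hES hz).2) (lt_of_le_of_ne hT hne))
    ((le_inf h.hA hAE).trans nrm_cm) ((le_inf h.hK (hKE.trans le_normalizer)).trans nrm_cm)
  exact h.ne (perfect_fix h.perf fun x hx u hu => le_fx_iff.2 this (dl_mem_cm (hKE hx) hu))

omit [Finite V] in
theorem step6c (hD : PDg 2 U A K) (hp2 : p = 2) (ha : a ∈ A) (hn : a ∉ normalizer (K : Set G))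
    {w : V} (hw : w ∈ U.map (dl a)) (h1 : ∀ u ∈ U, dl a u = 0 ∨ dl a u = w) : False := by
  subst hp2
  have hwU : w ∈ U := by obtain ⟨u, hu, rfl⟩ := hw; exact dl_mem_of_nrm (h.hA ha) hu
  have a2 : a * a = 1 := by rw [← pow_two]; exact h.ea.2 a ha
  have neg : ∀ v : V, -v = v := fun v => neg_eq_of_add_eq_zero_left (by rw [← two_nsmul, h.h0])
  have aw : a • w = w := by
    obtain ⟨u, -, rfl⟩ := hw
    rw [dl_apply, smul_sub, ← mul_smul, a2, one_smul, ← neg_sub, neg]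
  have e1 : ∀ x ∈ K, (a * x * a⁻¹) • w = x⁻¹ • w := fun x hx => by
    have := hD a ha hn x hx w hw
    rw [show dg a x 2 = x * (a * x * a⁻¹) by simp [dg_succ, dg_zero], mul_smul] at this
    rw [eq_inv_smul_iff, this]
  have hN : K ≤ normalizer ((K ⊓ MulAction.stabilizer G w : Subgroup G) : Set G) :=
    le_normalizer_of_conj fun y hy x hx => ⟨K.mul_mem (K.mul_mem hy hx.1) (K.inv_mem hy), by
      show (y * x * y⁻¹) • w = w
      rw [mul_smul, mul_smul, ← e1 y hy, ← mul_smul x, h.alt a ha hn y hy x hx.1, mul_smul,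
        show x • w = w from hx.2, e1 y hy, smul_inv_smul]⟩
  rcases H14.quasi_sub_normalized h.q hN with k | k
  · have k1 : K ≤ ctr G (U.map (dl a)) := fun x hx => by
      rintro _ ⟨u, hu, rfl⟩
      rcases h1 u hu with e | e <;> rw [e]
      exacts [smul_zero x, (k hx).2]
    obtain ⟨x, hx, hxc⟩ := h.exists_nc
    have k3 : K ≤ stb G U (U.map (dl a)) := le_of_mul_mem h.q
      ((le_inf h.hK (k1.trans ctr_le_nrm)).trans nrm_le_normalizer_stb) hx hxc
      (h.alt a ha hn _ (inv_mem hx)) (mem_stb_of_dl (by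
        rintro _ ⟨u, hu, rfl⟩; exact dl_mem_of_nrm (h.hA ha) hu) fun u hu => by
        have u1 := smul_mem_of_nrm (inv_mem (h.hA ha)) hu
        have u2 := smul_mem_of_nrm (inv_mem (h.hK hx)) u1
        have e3 : dl (x * (a * x⁻¹ * a⁻¹)) u = x • dl a (x⁻¹ • a⁻¹ • u) - dl a (a⁻¹ • u) := by
          simp [dl_apply, mul_smul, smul_sub]
        rw [e3, k1 hx _ ⟨_, u2, rfl⟩]
        exact sub_mem ⟨_, u2, rfl⟩ ⟨_, u1, rfl⟩)
    exact h.ne (perfect_fix h.perf fun x hx u hu => le_fx_iff.2 k1 ((k3 hx).2 u hu))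
  have k1 : ∀ x ∈ K, (x ^ 2) • w = w ∨ (x ^ 3) • w = w := fun x hx => by
    have e2 : a • x⁻¹ • w = x • w := by
      rw [← e1 x hx, mul_smul, mul_smul, inv_smul_eq_iff.2 aw.symm, ← mul_smul, a2, one_smul]
    have e3 : (x ^ 2) • w = w + x • dl a (x⁻¹ • w) := by
      rw [dl_apply, e2, smul_sub, smul_inv_smul, pow_two, mul_smul]; abel
    rcases h1 _ (smul_mem_of_nrm (inv_mem (h.hK hx)) hwU) with e | e
    · left; rw [e3, e, smul_zero, add_zero]
    · right
      rw [e] at e3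
      rw [pow_succ', mul_smul, e3, smul_add, ← mul_smul, ← pow_two, e3, add_left_comm,
        ← two_nsmul, h.h0, add_zero]
  haveI := h.q.2
  refine H14.quasi_not_solvable (H14.quasi_quotient_center h.q)
    (H75.isSolvable_of_simple_of_pow fun x => ?_)
  obtain ⟨x, rfl⟩ := QuotientGroup.mk_surjective x
  have k2 : ∀ n : ℕ, ((x : G) ^ n) • w = w → (x : K ⧸ center K) ^ n = 1 := fun n e => by
    rw [← QuotientGroup.mk_pow, QuotientGroup.eq_one_iff, mem_center_iff]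
    exact fun z => Subtype.ext (H14.commutator_eq_bot_iff_comm.1 k _
      ⟨⟨K.pow_mem x.2 n, e⟩, K.pow_mem x.2 n⟩ z z.2).symm
  exact (k1 x x.2).imp (k2 2) (k2 3)

theorem step6 (hB : BOf U A) (hm : PMin U A K) (hD : PDg p U A K) (hp2 : p = 2)
    (hf : ∀ c ∈ A, c ∈ ctr G U → c = 1)
    (h1 : ∀ a ∈ A, a ∉ normalizer (K : Set G) → ∀ b ∈ A, b ∉ normalizer (K : Set G) →
      a⁻¹ * b ∈ normalizer (K : Set G)) (ha : a ∈ A) (hn : a ∉ normalizer (K : Set G)) : False := by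
  classical
  let ι := {a : G // a ∈ A ∧ a ∉ normalizer (K : Set G)}
  have hc : Nat.card A ≤ 2 * Nat.card ι := by
    rw [show 2 = Nat.card Bool by simp, ← Nat.card_prod]
    refine Nat.card_le_card_of_injective (fun g : A => if k : (g : G) ∈ normalizer (K : Set G) then
      (true, ⟨a * g, mul_mem ha g.2, fun e => hn (by simpa using mul_mem e (inv_mem k))⟩)
      else (false, ⟨g, g.2, k⟩)) fun g g' e => ?_
    dsimp only at e
    split_ifs at e <;> simp_all [ι]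
  obtain ⟨⟨b, hb, hbn⟩, k⟩ : ∃ i : ι, (dl (i : G) : V →+ V).ker.relIndex U ≤ 2 := by
    by_contra k
    push Not at k
    have := add_dual_count h.h0 U (fun i : ι => (dl (i : G) : V →+ V).ker) (fx V A)
      (fun i v hv => dl_of_fx hv i.2.1) (fun i j hij => h.step6a hm (hp2 ▸ hD) hp2 h1 i.2.1 i.2.2
        j.2.1 j.2.2 fun e => hij (Subtype.ext (inv_mul_eq_one.1
          (hf _ (mul_mem (inv_mem i.2.1) j.2.1) e)))) k
    have := hB.index_le
    omega
  rw [AddSubgroup.relIndex_ker] at k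
  obtain ⟨u, hu, hu'⟩ : ∃ u ∈ U, dl b u ≠ 0 := by
    by_contra e
    push Not at e
    exact hbn (h.ctr_nrm hb fun u hu => dl_eq_zero.1 (e u hu))
  refine h.step6c (hp2 ▸ hD) hp2 hb hbn ⟨u, hu, rfl⟩ fun v hv => ?_
  by_contra e
  push Not at e
  exact absurd ((Set.two_lt_ncard (s := (U.map (dl b) : Set V))).2 ⟨0, zero_mem _, _, ⟨u, hu, rfl⟩, _,
    ⟨v, hv, rfl⟩, hu'.symm, e.1.symm, e.2.symm⟩) (not_lt.2 k)

theorem final (hB : BOf U A) (hm : PMin U A K) (hD : PDg p U A K)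
    (hf : ∀ c ∈ A, c ∈ ctr G U → c = 1) (ha : a ∈ A) (hn : a ∉ normalizer (K : Set G)) : False := by
  rcases hp.out.eq_two_or_odd' with hp2 | ⟨m, hm'⟩
  · by_cases h1 : ∀ a ∈ A, a ∉ normalizer (K : Set G) → ∀ b ∈ A, b ∉ normalizer (K : Set G) →
        a⁻¹ * b ∈ normalizer (K : Set G)
    · exact h.step6 hB hm hD hp2 hf h1 ha hn
    push Not at h1
    obtain ⟨a₁, h1, h2, a₂, h3, h4, h5⟩ := h1
    refine h.step5b hD ha hn fun b hb hbn y hy => ?_
    obtain ⟨c, hc, hcn, k⟩ : ∃ c ∈ A, c ∉ normalizer (K : Set G) ∧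
        c⁻¹ * b ∉ normalizer (K : Set G) := by
      by_cases k : a₁⁻¹ * b ∈ normalizer (K : Set G)
      · exact ⟨a₂, h3, h4, fun k' => h5 (by simpa [mul_assoc] using mul_mem k (inv_mem k'))⟩
      · exact ⟨a₁, h1, h2, k⟩
    refine h.step5a hD hc hcn hb hbn (fun j hj => ?_) k hy
    have c2 : c ^ 2 = 1 := hp2 ▸ h.ea.2 c hc
    rw [← Nat.div_add_mod j 2, pow_add, pow_mul, c2, one_pow, one_mul] at hj
    rcases Nat.mod_two_eq_zero_or_one j with e | e <;> rw [e] at hj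
    · exact absurd (by simpa using hj) hbn
    · rw [pow_one, (h.comm hb hc).eq, ← inv_eq_of_mul_eq_one_right (show c * c = 1 from pow_two c ▸ c2)] at hj
      exact absurd hj k
  · refine h.step5b hD ha hn fun b hb hbn y hy => ?_
    have h2 := hp.out.two_le
    have k := h.pow_not_mem hb hbn (j := m + 1) (by omega) (by omega)
    refine h.step5a hD (pow_mem hb (m + 1)) k hb hbn (fun j hj => ?_) ?_ hy
    · rw [← pow_mul, ← pow_succ'] at hj ⊢
      obtain ⟨r, hr⟩ := h.dvd_of_pow_mem hb hbn hj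
      rw [hr, pow_mul, h.ea.2 b hb, one_pow]
    · rwa [show (b ^ (m + 1))⁻¹ * b = b ^ (m + 1) by
        rw [inv_mul_eq_iff_eq_mul, ← pow_add, show m + 1 + (m + 1) = p + 1 by omega, pow_succ,
          h.ea.2 b hb, one_mul]]

end PCtx

theorem pgv_aux [Fact p.Prime] [Finite G] [Finite V] {K : Subgroup G} (n : ℕ) :
    ∀ (U : AddSubgroup V) (A : Subgroup G), Nat.card U + Nat.card A = n → PCtx p U A K → BOf U A →
      A ≤ normalizer (K : Set G) := by
  induction n using Nat.strong_induction_on with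
  | _ n ih =>
  intro U A hn h hB
  have ihA : ∀ B ≤ A, B ≠ A → BOf U B → B ≤ normalizer (K : Set G) := fun B h1 h2 h3 =>
    ih _ (by have := mt (eq_of_le_of_card_ge h1) h2; omega) U B rfl (h.mono h1) h3
  by_cases hf : A ⊓ ctr G U = ⊥
  swap
  · obtain ⟨B, h1, h2⟩ := H9.exists_compl_of_elementary h.ea (inf_le_left : A ⊓ ctr G U ≤ A)
    have h3 : B ≤ A := h2 ▸ le_sup_right
    rw [← h2]
    exact sup_le (fun c hc => h.ctr_nrm hc.1 hc.2) (ihA B h3 (fun e => hf (by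
      rw [← h1, e, inf_eq_left.2 inf_le_left]))
      (hB.compl (fun _ ha _ hb => h.comm ha hb) inf_le_right h1 h2))
  replace hf : ∀ c ∈ A, c ∈ ctr G U → c = 1 := fun c h1 h2 => mem_bot.1 (hf.le ⟨h1, h2⟩)
  by_cases hm : PMin U A K
  swap
  · simp only [PMin, not_forall] at hm
    obtain ⟨W, h1, h2, h3, h4⟩ := hm
    exact ih _ (by have := mt (AddSubgroup.eq_of_le_of_card_ge h1.le) h1.ne; omega) W A rfl
      ⟨h.h0, h.ea, h2, h3, h.q, h4, h.alt⟩ (hB.mono h1.le)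
  intro a ha
  by_contra han
  refine h.final hB hm ?_ hf ha han
  obtain ⟨r1, r2⟩ := hB.replace (fun _ ha _ hb => h.comm ha hb) h.hA
  by_cases k : ∃ t ∈ A ⊓ ctr G (cm U A), t ≠ 1 ∧ t ∈ normalizer (K : Set G)
  · obtain ⟨t, h1, h2, h3⟩ := k
    exact h.caseI hm h1.1 h3 (fun e => h2 (hf t h1.1 e)) h1.2
  push Not at k
  have e : A ⊓ ctr G (cm U A) = A := by
    by_contra e
    have k1 := ihA _ inf_le_left e (hB.of_eq inf_le_left r1)
    have k2 : A ⊓ ctr G (cm U A) = ⊥ := eq_bot_iff.2 fun t ht => by_contra fun h1 => k t ht h1 (k1 ht)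
    rw [k2, fx_bot, inf_top_eq] at r2
    have k3 : cm U A ≠ ⊥ := fun e' => han (h.ctr_nrm ha fun u hu =>
      dl_eq_zero.1 (AddSubgroup.mem_bot.1 (e'.le (dl_mem_cm ha hu))))
    refine (cm_lt h.h0 (isPGroup_of_ea h.ea) ((le_inf h.hA le_normalizer).trans nrm_cm) k3).not_ge
      (cm_le.2 fun b hb u hu => ?_)
    obtain ⟨v, hv, w, hw, rfl⟩ := AddSubgroup.mem_sup.1 (r2.le hu)
    rw [map_add, dl_of_fx hw.2 hb, add_zero]
    exact dl_mem_cm hb hv
  exact h.caseII hB (inf_eq_left.1 e) fun b hb h1 => by_contra fun h2 => k b (e.ge hb) h2 h1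

/-- the P(G,V)-theorem -/
theorem pgv [Fact p.Prime] [Finite G] [Finite V] (h0 : ∀ v : V, p • v = 0) {A K : Subgroup G}
    (hA : IsElementaryAbelian p A) (hB : BOf (⊤ : AddSubgroup V) A) (hK : IsComponent K)
    (hne : ¬ K ≤ ctr G (⊤ : AddSubgroup V)) : A ≤ normalizer (K : Set G) := by
  refine pgv_aux _ ⊤ A rfl ⟨h0, hA, nrm_top.ge.trans' le_top, nrm_top.ge.trans' le_top, hK.2, hne,
    fun a _ hn x hx => ?_⟩ hB
  rcases H14.comp_eq_or_commute (H14.comp_map_conj hK a) hK with e | e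
  · exact absurd (mem_normalizer_fintype fun n hn => e.le ⟨n, hn, rfl⟩) hn
  · exact commutator_eq_bot_iff_le_centralizer.1 e ⟨x, hx, rfl⟩

end H94
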