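import Cfsg.Agent.H42.PnSpec

/-! PN tower (S3399), slot `CLQ`. -/

set_option autoImplicit false
set_option linter.unusedSectionVars false

namespace H94.PN

open Equiv MulAction Pointwise H2.Ln H42.PN

variable {α : Type} [Fintype α] [DecidableEq α] {H K : Subgroup (Perm α)} {a u : α}

theorem mem_fx1 {g : Perm α} : g ∈ fx H {a} ↔ g ∈ H ∧ g a = a := by simp [mem_fx]

theorem k_le (hK : K ≤ H) (ha : a ∈ fp K) : K ≤ fx H {a} := fun k hk =>
  mem_fx1.2 ⟨hK hk, mem_fp.1 ha k hk⟩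

theorem not_mem (hu : u ≠ a) : a ∉ orb (fx H {a}) u := fun h => by
  obtain ⟨x, hx, e⟩ := mem_orb.1 h
  exact hu (x.injective (e.trans (mem_fx1.1 hx).2.symm))

theorem two_pts (hK : K ≤ H) (ha : a ∈ fp K) (h : ¬ orb (fx H {a}) u ⊆ fp K) :
    ∃ v ∈ orb (fx H {a}) u, ∃ v' ∈ orb (fx H {a}) u, v ≠ v' := by
  obtain ⟨x, hx, hx'⟩ := Finset.not_subset.1 h
  rw [mem_fp] at hx'
  push Not at hx'
  obtain ⟨k, hk, e⟩ := hx'
  exact ⟨_, orb_inv k (k_le hK ha hk) x hx, x, hx, e⟩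

/-- two elements with the same image of `a` -/
theorem back {g h : Perm α} (hg : g ∈ H) (hh : h ∈ H) (e : h a = g a) :
    g⁻¹ (h u) ∈ orb (fx H {a}) u :=
  mem_orb.2 ⟨g⁻¹ * h, mem_fx1.2 ⟨H.mul_mem (H.inv_mem hg) hh, by simp [e]⟩, rfl⟩

theorem jobClq : Clq := by
  intro α _ _ H K N Δ loc sit hN a ha haF u hu hua O hO hm hc col
  subst hO
  obtain ⟨v, hv, v', hv', n⟩ := two_pts sit.le haF hm
  obtain ⟨g1, m1, e1, e2⟩ := col v hv v' hv' n
  obtain ⟨g2, m2, e3, e4⟩ := col v' hv' v hv n.symm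
  have key : ∀ x ∈ insert a (orb (fx H {a}) u), ∃ g ∈ sw H (insert a (orb (fx H {a}) u)),
      g a = x := fun x hx => by
    rcases Finset.mem_insert.1 hx with rfl | hx
    · exact ⟨1, one_mem _, rfl⟩
    obtain ⟨l, hl, rfl⟩ := mem_orb.1 hx
    obtain ⟨l1, l2⟩ := mem_fx1.1 hl
    have m3 : l * (g2⁻¹ * g1) ∈ H := H.mul_mem l1 (H.mul_mem (H.inv_mem m2) m1)
    have e5 : (l * (g2⁻¹ * g1)) a = l u := by simp [e1, ← e4]
    have e6 : (l * (g2⁻¹ * g1)) u = a := by simp [e2, ← e3, l2]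
    refine ⟨_, (inv_mem_iff (H := sw H _)).1 ⟨H.inv_mem m3, sm_eq_iff.2 fun y hy => ?_⟩, e5⟩
    by_cases c : y = l u
    · rw [c, Perm.inv_eq_iff_eq.2 e5.symm]; exact Finset.mem_insert_self _ _
    refine Finset.mem_insert_of_mem ?_
    rcases Finset.mem_insert.1 hy with rfl | hy
    · rw [Perm.inv_eq_iff_eq.2 e6.symm]; exact self_mem_orb
    · obtain ⟨h, hh, e7, rfl⟩ := col _ hx y hy (Ne.symm c)
      exact back m3 hh (e7.trans e5.symm)
  have sub : insert a (orb (fx H {a}) u) ⊆ Δ := Finset.insert_subset ha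
    (orb_sub (fun g hg => sit.inv g (mem_fx1.1 hg).1) hu)
  by_contra ne
  obtain ⟨x, hx, hx'⟩ := Finset.not_subset.1 hm
  have := loc α (sw H (insert a (orb (fx H {a}) u))) K _ ⟨fun k hk => ⟨sit.le hk,
    sm_eq_iff.2 fun y hy => ?_⟩, sit.pro.mono inf_le_left, fun g hg => sm_eq_iff.1 hg.2,
    fun y hy z hz => ?_, x, Finset.mem_insert_of_mem hx, hx'⟩
    ((Finset.card_lt_card ⟨sub, fun h => ne (sub.antisymm h)⟩).trans_le hN)
  · rw [Finset.insert_inter_of_mem haF, Finset.card_insert_of_notMem (not_mem hua),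
      Finset.card_insert_of_notMem fun h => not_mem hua (Finset.mem_inter.1 h).1] at this
    omega
  · rcases Finset.mem_insert.1 hy with rfl | hy
    · rw [mem_fp.1 haF k hk]; exact Finset.mem_insert_self _ _
    · exact Finset.mem_insert_of_mem (orb_inv k (k_le sit.le haF hk) y hy)
  · obtain ⟨g, hg, rfl⟩ := key y hy
    obtain ⟨h, hh, rfl⟩ := key z hz
    exact ⟨h * g⁻¹, mul_mem hh (inv_mem hg), by simp⟩

theorem jobAll1 : Clq → All1 := by
  intro clq α _ _ H K N Δ loc sit hN a ha haF all u hu hua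
  obtain ⟨hm, hc, t2⟩ := all u hu hua _ rfl
  obtain ⟨v1, h1, v2, h2, n12⟩ := two_pts sit.le haF hm
  have sub : orb (fx H {a}) u ⊆ Δ := orb_sub (fun g hg => sit.inv g (mem_fx1.1 hg).1) hu
  have c2 : 1 < (orb (fx H {a}) u).card := Finset.one_lt_card.2 ⟨v1, h1, v2, h2, n12⟩
  obtain ⟨v3, h3, h3'⟩ := Finset.exists_mem_notMem_of_card_lt_card
    (s := {v1, v2}) (t := orb (fx H {a}) u) (by rw [Finset.card_pair n12]; omega)
  rw [Finset.mem_insert, Finset.mem_singleton, not_or] at h3'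
  obtain ⟨g, hg, rfl⟩ := sit.tr a ha v1 (sub h1)
  obtain ⟨w, rfl⟩ := g.surjective v2
  have hw : w ∈ Δ := by simpa using sit.inv g⁻¹ (inv_mem hg) _ (sub h2)
  have hwa : w ≠ a := fun e => n12 (by rw [e])
  have col : ∀ x ∈ orb (fx H {a}) u, ∀ y ∈ orb (fx H {a}) u, x ≠ y →
      ∃ h ∈ H, h a = x ∧ h w = y := fun x hx y hy n => by
    obtain ⟨l, hl, rfl, rfl⟩ := t2 _ h1 _ h2 x hx y hy n12 n
    exact ⟨l * g, mul_mem (mem_fx1.1 hl).1 hg, rfl, rfl⟩
  obtain ⟨hm', hc', t2'⟩ := all w hw hwa _ rfl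
  obtain ⟨k, hk, e1, e2⟩ := col _ h1 v3 h3 (Ne.symm h3'.1)
  obtain ⟨k', hk', e3, e4⟩ := col _ h2 v3 h3 (Ne.symm h3'.2)
  have m1 := back (u := w) hg hk e1
  rw [e2] at m1
  have e := clq α H K N Δ loc sit hN a ha haF w hw hwa _ rfl hm' hc' fun x hx y hy n => by
    obtain ⟨l, hl, rfl, rfl⟩ := t2' w self_mem_orb _ m1 x hx y hy
      (fun c => h3'.2 (by rw [c]; simp)) n
    exact ⟨l * (g⁻¹ * k'), mul_mem (mem_fx1.1 hl).1 (mul_mem (inv_mem hg) hk'), by simp [e3],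
      by simp [e4]⟩
  rw [orb_eq ((Finset.mem_insert.1 (e ▸ hu : u ∈ insert a (orb (fx H {a}) w))).resolve_left hua), e]

end H94.PN
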