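import Cfsg.Agent.H4.Product

/-! Vectors fixed by a subgroup which is transitive on a spanning orbit. -/

set_option autoImplicit false

namespace H94.Sw

open Subgroup

variable {k V H : Type*} [Field k] [AddCommGroup V] [Module k V] [Group H]

/-- The stabilizer of a vector. -/
def stab (ρ : Representation k H V) (a : V) : Subgroup H where
  carrier := {h | ρ h a = a}
  one_mem' := by simp
  mul_mem' {x y} hx hy := by
    simp only [Set.mem_setOf_eq, map_mul, Module.End.mul_apply] at *
    rw [hy, hx]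
  inv_mem' {x} hx := by
    simp only [Set.mem_setOf_eq] at *
    conv_lhs => rw [← hx]
    rw [← Module.End.mul_apply, ← map_mul, inv_mul_cancel, map_one, Module.End.one_apply]

theorem mem_stab {ρ : Representation k H V} {a : V} {h : H} : h ∈ stab ρ a ↔ ρ h a = a := Iff.rfl

theorem index_stab (ρ : Representation k H V) (a : V) :
    (stab ρ a).index = Nat.card {u : V | ∃ h : H, ρ h a = u} := by
  letI : MulAction H V :=
    { smul := fun h v => ρ h v
      one_smul := fun v => by show ρ 1 v = v; simp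
      mul_smul := fun x y v => by show ρ (x * y) v = ρ x (ρ y v); simp }
  exact (MulAction.index_stabilizer H a).trans (Nat.card_coe_set_eq _).symm

theorem fixed_of_trans [Finite H] (ρ : Representation k H V) (a : V)
    (hspan : Submodule.span k {u : V | ∃ h : H, ρ h a = u} = ⊤) (L : Subgroup H)
    (hL : (Nat.card L : k) ≠ 0) (hc : L.index.Coprime (stab ρ a).index) :
    ∃ t : V, (∀ h : H, ρ h t = t) ∧ ∀ v : V, (∀ l ∈ L, ρ l v = v) → v ∈ Submodule.span k {t} := by
  classical
  haveI := Fintype.ofFinite H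
  have tr : ∀ h : H, ∃ l : L, ρ h a = ρ l a := fun h => by
    obtain ⟨l, hl, s, hs, rfl⟩ := H4.exists_mul_of_coprime_index hc h
    exact ⟨⟨l, hl⟩, by rw [map_mul, Module.End.mul_apply, mem_stab.1 hs]⟩
  let S : V →ₗ[k] V := ∑ l : L, ρ l
  have hS : ∀ v, S v = ∑ l : L, ρ l v := fun v => by simp [S, LinearMap.sum_apply]
  have hSl : ∀ (l : L) v, S (ρ l v) = S v := fun l v => by
    rw [hS, hS]
    exact Fintype.sum_equiv (Equiv.mulRight l) _ _ fun x => by simp
  let O : Finset V := Finset.univ.image fun h : H => ρ h a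
  have hO : S a = (Finset.univ.filter fun l : L => ρ l a = a).card • ∑ u ∈ O, u := by
    have e : O = Finset.univ.image fun l : L => ρ l a := by
      ext u
      simp only [O, Finset.mem_image, Finset.mem_univ, true_and]
      exact ⟨fun ⟨h, hh⟩ => (tr h).imp fun l hl => hl.symm.trans hh, fun ⟨l, hl⟩ => ⟨l, hl⟩⟩
    rw [hS, Finset.sum_comp (fun u : V => u) fun l : L => ρ l a, Finset.smul_sum, e]
    refine Finset.sum_congr rfl fun u hu => ?_
    obtain ⟨l, -, rfl⟩ := Finset.mem_image.1 hu
    congr 1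
    refine Finset.card_bijective _ (Equiv.mulLeft l⁻¹).bijective fun x => ?_
    simp only [Finset.mem_filter, Finset.mem_univ, true_and, Equiv.coe_mulLeft, coe_mul,
      map_mul, Module.End.mul_apply]
    constructor
    · intro h
      rw [h, ← Module.End.mul_apply, ← map_mul]
      simp
    · intro h
      conv_rhs => rw [← h, ← Module.End.mul_apply, ← map_mul]
      simp
  refine ⟨S a, fun h => ?_, fun v hv => ?_⟩
  · rw [hO, map_nsmul, map_sum]
    congr 1
    have inv : ∀ g u, ρ g⁻¹ (ρ g u) = u := fun g u => by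
      rw [← Module.End.mul_apply, ← map_mul, inv_mul_cancel, map_one, Module.End.one_apply]
    have mem : ∀ g, ∀ u ∈ O, ρ g u ∈ O := fun g u hu => by
      obtain ⟨x, -, rfl⟩ := Finset.mem_image.1 hu
      exact Finset.mem_image.2 ⟨g * x, Finset.mem_univ _, by simp⟩
    exact Finset.sum_nbij' (ρ h) (ρ h⁻¹) (mem h) (mem h⁻¹) (fun u _ => inv h u)
      (fun u _ => by simpa using inv h⁻¹ u) fun _ _ => rfl
  · have h1 : ∀ v, S v ∈ Submodule.span k {S a} := fun v => by
      have : v ∈ Submodule.span k {u : V | ∃ h : H, ρ h a = u} := hspan ▸ trivial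
      refine (Submodule.span_le (p := (Submodule.span k {S a}).comap S)).2 ?_ this
      rintro _ ⟨h, rfl⟩
      obtain ⟨l, hl⟩ := tr h
      refine Submodule.mem_comap.2 ?_
      rw [hl, hSl]
      exact Submodule.mem_span_singleton_self _
    have h2 : S v = (Nat.card L : k) • v := by
      rw [hS, Finset.sum_congr rfl fun (l : L) _ => hv l l.2]
      simp [Nat.cast_smul_eq_nsmul]
    exact (Submodule.smul_mem_iff _ hL).1 (h2 ▸ h1 v)

theorem orbit_main [Finite H] (ρ : Representation k H V) (a : V)
    (hspan : Submodule.span k {u : V | ∃ h : H, ρ h a = u} = ⊤)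
    (hL : ∀ B : Subgroup H, B.index.Coprime (stab ρ a).index →
      ∃ L ≤ B, (Nat.card L : k) ≠ 0 ∧ L.index.Coprime (stab ρ a).index) :
    Module.finrank k ρ.invariants ≤ 1 ∧
    ∀ b : V, (Nat.card {u : V | ∃ h : H, ρ h a = u}).Coprime
      (Nat.card {u : V | ∃ h : H, ρ h b = u}) → ∀ h : H, ρ h b = b := by
  refine ⟨?_, fun b hb h => ?_⟩
  · obtain ⟨L, -, h1, h2⟩ := hL ⊤ (by simp)
    obtain ⟨t, -, ht⟩ := fixed_of_trans ρ a hspan L h1 h2
    exact (Submodule.finrank_mono (t := Submodule.span k {t}) fun v hv =>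
      ht v fun l _ => (ρ.mem_invariants v).1 hv l).trans ((finrank_span_le_card ({t} : Set V)).trans (by simp))
  · rw [← index_stab, ← index_stab] at hb
    obtain ⟨L, h0, h1, h2⟩ := hL _ hb.symm
    obtain ⟨t, ht, ht'⟩ := fixed_of_trans ρ a hspan L h1 h2
    obtain ⟨c, rfl⟩ := Submodule.mem_span_singleton.1 (ht' b fun l hl => h0 hl)
    rw [map_smul, ht]

end H94.Sw
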