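/- Extraspecial Sylow subgroup of order `27`: setup, weak closure, fusion (steps F0, F1, F2 of
blueprint `X3.md`). -/
import Cfsg.Agent.H34.X3Spec

namespace H94.X3

open Subgroup Cfsg H34.X3

universe u

variable {G : Type*} [Group G] [Finite G]

/-- Two `p`-subgroups of `C` lie in one `p`-subgroup after a conjugation in `C`. -/
theorem two_into {p : ℕ} [Fact p.Prime] {S T C : Subgroup G} (hS : IsPGroup p S)
    (hT : IsPGroup p T) (hSC : S ≤ C) (hTC : T ≤ C) :
    ∃ c ∈ C, ∃ R : Subgroup G, IsPGroup p R ∧ S ≤ R ∧ ∀ t ∈ T, c * t * c⁻¹ ∈ R := by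
  obtain ⟨A, hA⟩ := (hS.comap_subtype (K := C)).exists_le_sylow
  obtain ⟨B, hB⟩ := (hT.comap_subtype (K := C)).exists_le_sylow
  obtain ⟨c, hc⟩ := MulAction.exists_smul_eq C B A
  refine ⟨c, c.2, (A : Subgroup C).map C.subtype, A.2.map _, fun s hs =>
    ⟨⟨s, hSC hs⟩, hA hs, rfl⟩, fun t ht => ⟨c * ⟨t, hTC ht⟩ * c⁻¹, ?_, rfl⟩⟩
  rw [← hc]
  exact smul_mem_pointwise_smul _ (MulAut.conj c) _ (hB ht)

theorem conj_into {p : ℕ} [Fact p.Prime] (P : Sylow p G) {T C : Subgroup G}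
    (hT : IsPGroup p T) (hP : (P : Subgroup G) ≤ C) (hTC : T ≤ C) :
    ∃ c ∈ C, ∀ t ∈ T, c * t * c⁻¹ ∈ (P : Subgroup G) := by
  obtain ⟨c, hc, R, h1, h2, h3⟩ := two_into P.2 hT hP hTC
  exact ⟨c, hc, fun t ht => P.3 h1 h2 ▸ h3 t ht⟩

theorem pg_zp {x : G} (h : x ^ 3 = 1) : IsPGroup 3 (zpowers x) := by
  rintro ⟨y, hy⟩
  obtain ⟨k, rfl⟩ := hy
  refine ⟨1, Subtype.ext ?_⟩
  change (x ^ k) ^ (3 ^ 1) = 1
  rw [pow_one, ← zpow_natCast, ← zpow_mul, mul_comm, zpow_mul, zpow_natCast, h, one_zpow]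

variable {P : Sylow 3 G} {z u : G}

theorem jobF0 : JobF0.{u} := by
  refine ⟨fun G _ _ P hE hc h3 hn => ?_, fun G _ _ P z hX h => ⟨?_, ?_⟩⟩
  · have : Nontrivial (center (P : Subgroup G)) := Finite.one_lt_card_iff_nontrivial.1 (by
      rw [hE.2]; norm_num)
    obtain ⟨t, ht⟩ := exists_ne (1 : center (P : Subgroup G))
    have hz : ∀ y ∈ (P : Subgroup G), (t.1 : G) * y = y * t.1 := fun y hy =>
      (congrArg Subtype.val (mem_center_iff.1 t.2 ⟨y, hy⟩)).symm
    have key : ∀ x : (P : Subgroup G), x ∈ center (P : Subgroup G) → (x : G) ∈ zpowers (t.1 : G) :=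
      fun x hx => by
        obtain ⟨k, hk⟩ := mem_zpowers_of_prime_card hE.2 ht (g' := ⟨x, hx⟩)
        exact ⟨k, by simpa using congrArg (fun a : center (P : Subgroup G) => (a.1 : G)) hk⟩
    refine ⟨t.1, hc, h3, t.1.2, fun k => ht (Subtype.ext (Subtype.ext k)), fun x hx =>
      ⟨?_, fun k => key ⟨x, hx⟩ (mem_center_iff.2 fun y => Subtype.ext (k y y.2).symm)⟩,
      fun a ha b hb => key (⟨a, ha⟩ * ⟨b, hb⟩ * ⟨a, ha⟩⁻¹ * ⟨b, hb⟩⁻¹) ?_,
      fun g hg => hn g hg _ t.1.2 hz⟩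
    · rintro ⟨k, rfl⟩ y hy
      exact (Commute.zpow_left (hz y hy) k).eq
    · rw [← hE.1.2.2]
      exact commutator_mem_commutator (mem_top _) (mem_top _)
  · have hzp : ∀ x : centralizer ({z} : Set G), x ∈ zpowers (zc z) ↔ (x : G) ∈ zpowers z :=
      fun x => ⟨fun ⟨k, hk⟩ => ⟨k, by rw [← hk]; rfl⟩, fun ⟨k, hk⟩ => ⟨k, Subtype.ext hk⟩⟩
    refine ⟨?_, fun x hx => Subtype.ext (hX.exp x hx), hX.mem,
      fun k => hX.ne (congrArg Subtype.val k), fun x hx => ?_,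
      fun a ha b hb => (hzp _).2 (hX.com a ha b hb),
      fun g _ => Subtype.ext (mem_centralizer_singleton_iff.1 g.2)⟩
    · rw [Sylow.coe_subtype, Nat.card_congr (subgroupOfEquivOfLe h).toEquiv, hX.card]
    · rw [hzp, hX.cen x hx]
      exact ⟨fun k y hy => Subtype.ext (k y hy),
        fun k y hy => congrArg Subtype.val (k ⟨y, h hy⟩ hy)⟩
  · have h1 : normalizer ((P : Subgroup G) : Set G) ≤ centralizer {z} := fun g hg =>
      mem_centralizer_singleton_iff.2 (hX.nc g hg)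
    have h2 : centralizer ((P : Subgroup G) : Set G) ≤ centralizer {z} :=
      (centralizer_le_normalizer _).trans h1
    have h3 : centralizer (((P : Subgroup G).subgroupOf (centralizer {z}) : Subgroup _) :
        Set (centralizer ({z} : Set G))) =
        (centralizer ((P : Subgroup G) : Set G)).subgroupOf (centralizer {z}) := by
      ext x
      exact ⟨fun k y hy => congrArg Subtype.val (k ⟨y, h hy⟩ hy),
        fun k y hy => Subtype.ext (k y hy)⟩
    rw [ei, ei, Sylow.coe_subtype, h3, ← subgroupOf_normalizer_eq h, ← subgroupOf_sup h h2,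
      relIndex_subgroupOf h1]

/-- `z` is not conjugate to its inverse. -/
theorem not_inv (h : X P z) {g : G} (hg : g * z * g⁻¹ = z⁻¹) : False := by
  obtain ⟨c, hc, k⟩ := conj_into P (C := centralizer {z}) (P.2.map (MulAut.conj g).toMonoidHom)
    h.le (by
      rintro _ ⟨x, hx, rfl⟩
      have e : z = g * z⁻¹ * g⁻¹ := by
        rw [show g * z⁻¹ * g⁻¹ = (g * z * g⁻¹)⁻¹ by group, hg, inv_inv]
      refine mem_centralizer_singleton_iff.2 ?_
      have := (h.comm (inv_mem hx))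
      change g * x * g⁻¹ * z = z * (g * x * g⁻¹)
      have e2 : x * z⁻¹ = z⁻¹ * x := (Commute.inv_left (h.comm hx)).eq.symm
      calc g * x * g⁻¹ * z = g * x * g⁻¹ * (g * z⁻¹ * g⁻¹) := by rw [← e]
        _ = g * (x * z⁻¹) * g⁻¹ := by group
        _ = g * z⁻¹ * g⁻¹ * (g * x * g⁻¹) := by rw [e2]; group
        _ = _ := by rw [← e])
  have h1 := h.nc (c * g) (mem_normalizer_fintype fun x hx => by
    have : c * (g * x * g⁻¹) * c⁻¹ ∈ (P : Subgroup G) := k _ ⟨x, hx, rfl⟩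
    rw [show c * g * x * (c * g)⁻¹ = c * (g * x * g⁻¹) * c⁻¹ by group]
    exact this)
  have h2 : c * z⁻¹ = z⁻¹ * c := (Commute.inv_right (mem_centralizer_singleton_iff.1 hc)).eq
  have h3 : z = z⁻¹ := by
    calc z = c * (g * z * g⁻¹) * c⁻¹ := by
          rw [show c * (g * z * g⁻¹) * c⁻¹ = c * g * z * (c * g)⁻¹ by group, h1]; group
      _ = z⁻¹ := by rw [hg, h2]; group
  apply h.ne
  calc z = z ^ 3 * (z⁻¹ * z⁻¹) := by group
    _ = 1 := by rw [h.cube, one_mul]; nth_rw 1 [← h3]; group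

theorem jobF1 : JobF1.{u} := by
  intro G _ _ P z h g₀ ht
  set t := g₀ * z * g₀⁻¹ with htd
  by_cases hz : t ∈ zpowers z
  · rcases (mem_zp h.cube).1 hz with k | k | k
    · exact absurd (by simpa [htd] using k) h.ne
    · rw [← mul_inv_eq_iff_eq_mul, ← htd, k]
    · refine (not_inv h (g := g₀) ?_).elim
      rw [← htd, k, eq_inv_iff_mul_eq_one, ← h.cube, pow_three']
  exfalso
  have hzt : z * t = t * z := h.comm ht
  obtain ⟨c, hc, k⟩ := conj_into P (C := centralizer {z}) (T := zpowers (g₀⁻¹ * z * g₀))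
    (pg_zp (by
      rw [show (g₀⁻¹ * z * g₀) ^ 3 = g₀⁻¹ * z ^ 3 * g₀ by simp only [pow_three']; group, h.cube]
      group)) h.le (zpowers_le.2 (mem_centralizer_singleton_iff.2 (by
        calc g₀⁻¹ * z * g₀ * z = g₀⁻¹ * (z * t) * g₀ := by rw [htd]; group
          _ = _ := by rw [hzt, htd]; group)))
  have hcz : c * z = z * c := mem_centralizer_singleton_iff.1 hc
  obtain ⟨g, hg⟩ : ∃ g, g = g₀ * c⁻¹ := ⟨_, rfl⟩
  have e1 : g * z * g⁻¹ = t := by
    rw [hg, htd, show g₀ * c⁻¹ * z * (g₀ * c⁻¹)⁻¹ = g₀ * c⁻¹ * (z * c) * g₀⁻¹ by group, ← hcz]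
    group
  have hs : g⁻¹ * z * g ∈ (P : Subgroup G) := by
    have := k _ (mem_zpowers _)
    rw [hg]
    convert this using 1
    group
  have hsz : g⁻¹ * z * g ∉ zpowers z := by
    intro k1
    rcases (mem_zp h.cube).1 k1 with k | k | k
    · exact h.ne (by rw [show z = g * (g⁻¹ * z * g) * g⁻¹ by group, k]; group)
    · refine hz ?_
      rw [← e1]
      nth_rw 2 [← k]
      simpa [mul_assoc] using mem_zpowers z
    · refine not_inv h (g := g⁻¹) ?_
      rw [inv_inv, k, eq_inv_iff_mul_eq_one, ← h.cube, pow_three']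
  obtain ⟨a, ha, a1⟩ := h.shift ht hz
  obtain ⟨b', hb, b1⟩ := h.shift hs hsz
  have a2 : a * z * a⁻¹ = z := by rw [← h.comm ha]; group
  have b2 : b' * z * b'⁻¹ = z := by rw [← h.comm hb]; group
  obtain ⟨b, hb'⟩ : ∃ b, b = g * b' * g⁻¹ := ⟨_, rfl⟩
  have c1 : b * z * b⁻¹ = t * z := by
    calc b * z * b⁻¹ = g * (b' * (g⁻¹ * z * g) * b'⁻¹) * g⁻¹ := by rw [hb']; group
      _ = t * z := by rw [b1, ← e1]; group
  have c2 : b * t * b⁻¹ = t := by
    calc b * t * b⁻¹ = g * (b' * z * b'⁻¹) * g⁻¹ := by rw [hb', ← e1]; group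
      _ = t := by rw [b2, e1]
  have d2 : b⁻¹ * t * b = t := by nth_rw 1 [← c2]; group
  have d1 : b⁻¹ * z * b = t⁻¹ * z := by
    calc b⁻¹ * z * b = (b⁻¹ * t * b)⁻¹ * (b⁻¹ * (t * z) * b) := by group
      _ = t⁻¹ * z := by rw [d2, ← c1]; group
  have w1 : a * b⁻¹ * a * z * (a * b⁻¹ * a)⁻¹ = t⁻¹ := by
    calc _ = a * (b⁻¹ * (a * z * a⁻¹) * b) * a⁻¹ := by group
      _ = a * (t⁻¹ * z) * a⁻¹ := by rw [a2, d1]
      _ = (a * t * a⁻¹)⁻¹ * (a * z * a⁻¹) := by group
      _ = t⁻¹ := by rw [a1, a2]; group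
  have w2 : a * b⁻¹ * a * t * (a * b⁻¹ * a)⁻¹ = z := by
    calc _ = a * (b⁻¹ * (a * t * a⁻¹) * b) * a⁻¹ := by group
      _ = a * ((b⁻¹ * z * b) * (b⁻¹ * t * b)) * a⁻¹ := by rw [a1]; group
      _ = a * (t⁻¹ * (z * t)) * a⁻¹ := by rw [d1, d2]; group
      _ = z := by rw [hzt, inv_mul_cancel_left, a2]
  generalize a * b⁻¹ * a = w at w1 w2
  refine not_inv h (g := w * w) ?_
  calc w * w * z * (w * w)⁻¹ = w * (w * z * w⁻¹) * w⁻¹ := by group
    _ = (w * t * w⁻¹)⁻¹ := by rw [w1]; group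
    _ = z⁻¹ := by rw [w2]

/-- `z` is weakly closed in every `3`-subgroup. -/
theorem wc_pg (hW : WC P z) {S : Subgroup G} (hS : IsPGroup 3 S) (hz : z ∈ S) {g : G}
    (hg : g * z * g⁻¹ ∈ S) : g * z = z * g := by
  obtain ⟨c, -, k⟩ := conj_into P (C := ⊤) hS le_top le_top
  have h1 := hW c (k z hz)
  have h2 := hW (c * g) (by simpa [mul_assoc] using k _ hg)
  calc g * z = c⁻¹ * (c * g * z) := by group
    _ = c⁻¹ * (z * c) * g := by rw [h2]; group
    _ = z * g := by rw [← h1]; group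

/-- A `3`-subgroup that contains `z` and a further element has order at least nine. -/
theorem nine_dvd {T : Subgroup G} (hT : IsPGroup 3 T) (h3 : orderOf z = 3) (hz : z ∈ T)
    (hu : u ∈ T) (hn : u ∉ zpowers z) : 9 ∣ Nat.card T := by
  obtain ⟨n, hn'⟩ := hT.exists_card_eq
  by_contra k
  have : n ≤ 1 := by
    by_contra k1
    exact k (hn' ▸ pow_dvd_pow 3 (show 2 ≤ n by omega))
  refine hn ((eq_of_le_of_card_ge (zpowers_le.2 hz) ?_).ge hu)
  rw [Nat.card_zpowers, h3, hn']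
  exact (Nat.pow_le_pow_right (by norm_num) this).trans (by norm_num)

theorem jobF2 : JobF2.{u} := by
  intro G _ _ P z h hW
  refine ⟨fun x hx y hy hc => ?_, fun u hu hn => ?_⟩
  · obtain ⟨g, hg⟩ := isConj_iff.1 hc
    obtain ⟨c, hc, R, h1, h2, h3⟩ := two_into (C := centralizer {y}) (pg_zp h.cube)
      (pg_zp (x := g * z * g⁻¹) (by rw [conj_pow, h.cube]; group))
      (zpowers_le.2 (mem_centralizer_singleton_iff.2 (h.comm hy)))
      (zpowers_le.2 (mem_centralizer_singleton_iff.2 (by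
        rw [← hg, show g * z * g⁻¹ * (g * x * g⁻¹) = g * (z * x) * g⁻¹ by group, h.comm hx]
        group)))
    refine ⟨c * g, wc_pg hW h1 (h2 (mem_zpowers z))
      (by simpa [mul_assoc] using h3 _ (mem_zpowers _)), ?_⟩
    rw [show c * g * x * (c * g)⁻¹ = c * (g * x * g⁻¹) * c⁻¹ by group, hg,
      mem_centralizer_singleton_iff.1 hc]
    group
  have hzu : z ∈ centralizer ({u} : Set G) := mem_centralizer_singleton_iff.2 (h.comm hu)
  have huu : u ∈ centralizer ({u} : Set G) := mem_centralizer_singleton_iff.2 rfl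
  have hV : IsPGroup 3 ((P : Subgroup G).comap (centralizer ({u} : Set G)).subtype) :=
    P.2.comap_subtype
  obtain ⟨S, hS⟩ := hV.exists_le_sylow
  set S' := (S : Subgroup (centralizer ({u} : Set G))).map (centralizer ({u} : Set G)).subtype
    with hS'
  have p1 : IsPGroup 3 S' := S.2.map _
  have z1 : z ∈ S' := ⟨⟨z, hzu⟩, hS h.mem, rfl⟩
  have u1 : u ∈ S' := ⟨⟨u, huu⟩, hS hu, rfl⟩
  have c1 : Nat.card S' = Nat.card (S : Subgroup (centralizer ({u} : Set G))) :=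
    card_map_of_injective (subtype_injective _)
  have c9 : Nat.card S' = 9 := by
    obtain ⟨c, -, k⟩ := conj_into P (C := ⊤) p1 le_top le_top
    have hle : S'.map (MulAut.conj c).toMonoidHom ≤ P := by
      rintro _ ⟨x, hx, rfl⟩
      exact k x hx
    have c2 : Nat.card (S'.map (MulAut.conj c).toMonoidHom) = Nat.card S' :=
      card_map_of_injective (MulAut.conj c).injective
    have c3 := card_dvd_of_le hle
    rw [c2, h.card] at c3
    obtain ⟨m, hm⟩ := nine_dvd p1 (h.ord h.mem h.ne) z1 u1 hn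
    have c4 : m ∣ 3 := Nat.dvd_of_mul_dvd_mul_left (by norm_num : 0 < 9) (hm ▸ c3)
    rcases (Nat.dvd_prime Nat.prime_three).1 c4 with rfl | rfl
    · exact hm
    exfalso
    have heq := eq_of_le_of_card_ge hle (by rw [c2, h.card, hm])
    have hcz := hW c (k z z1)
    obtain ⟨j, hj⟩ := (h.cen _ (k u u1)).2 fun y hy => by
      obtain ⟨_, ⟨x, -, rfl⟩, rfl⟩ := heq.ge hy
      have := mem_centralizer_singleton_iff.1 x.2
      change c * u * c⁻¹ * (c * x * c⁻¹) = c * x * c⁻¹ * (c * u * c⁻¹)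
      rw [show c * u * c⁻¹ * (c * x * c⁻¹) = c * (u * x) * c⁻¹ by group, ← this]
      group
    refine hn ⟨j, ?_⟩
    have e := (Commute.zpow_right hcz j).eq
    change z ^ j = _ at hj
    change z ^ j = _
    calc z ^ j = c⁻¹ * (c * z ^ j) := by group
      _ = u := by rw [e, hj]; group
  refine ⟨⟨S, _, inferInstance, MonoidHom.ker_transferSylow_isComplement' _ fun n hn' x hx =>
    Subtype.ext ?_⟩, ?_⟩
  · have h1 : (n : G) * z = z * n := wc_pg hW p1 z1
      ⟨n * ⟨z, hzu⟩ * n⁻¹, (mem_normalizer_iff.1 hn' _).1 (hS h.mem), rfl⟩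
    have h2 := nine_dvd (T := S' ⊓ centralizer {(n : G)}) (p1.to_le inf_le_left)
      (h.ord h.mem h.ne) ⟨z1, mem_centralizer_singleton_iff.2 h1.symm⟩
      ⟨u1, mem_centralizer_singleton_iff.2 (mem_centralizer_singleton_iff.1 n.2).symm⟩ hn
    have h3 := eq_of_le_of_card_ge (inf_le_left : S' ⊓ centralizer {(n : G)} ≤ S')
      (c9 ▸ Nat.le_of_dvd Nat.card_pos h2)
    exact mem_centralizer_singleton_iff.1 (h3.ge (⟨x, hx, rfl⟩ : (x : G) ∈ S')).2
  · have := S.card_eq_multiplicity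
    rw [← c1, c9] at this
    exact Nat.pow_right_injective (le_refl 2 |>.trans (by norm_num : 2 ≤ 3)) this.symm

end H94.X3
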