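/- Extraspecial Sylow subgroup of order `27`: the quotient by the centre (steps F3, F4 of
blueprint `X3.md`). -/
import Cfsg.Agent.H94.X3FA

namespace H94.X3

open Subgroup Cfsg H34.X3 H36

universe u

/-- An element of `N` with `p`-th power in a normal subgroup `K ≥ P` of `N` lies in `K`. -/
theorem mem_of_pow {G : Type*} [Group G] [Finite G] {p : ℕ} [Fact p.Prime] (P : Sylow p G)
    {K N : Subgroup G} [(K.subgroupOf N).Normal] (hK : (P : Subgroup G) ≤ K)
    (hN : (P : Subgroup G) ≤ N) {m : G} (hm : m ∈ N) (hp : m ^ p ∈ K) : m ∈ K := by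
  have h1 : ¬ p ∣ K.relIndex N := fun k => P.not_dvd_index
    ((k.trans (relIndex_dvd_of_le_left N hK)).trans (relIndex_dvd_index_of_le hN))
  have h2 : orderOf ((⟨m, hm⟩ : N) : N ⧸ K.subgroupOf N) ∣ p :=
    orderOf_dvd_of_pow_eq_one (by
      rw [← QuotientGroup.mk_pow, QuotientGroup.eq_one_iff]; exact hp)
  rcases (Nat.dvd_prime Fact.out).1 h2 with k | k
  · exact (QuotientGroup.eq_one_iff (N := K.subgroupOf N) ⟨m, hm⟩).1 (orderOf_eq_one_iff.1 k)
  · exact absurd (k ▸ orderOf_dvd_natCard ((⟨m, hm⟩ : N) : N ⧸ K.subgroupOf N)) h1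

/-- If `m a m⁻¹ = a d` with `d` fixed by `m` and of order dividing three, `m³` fixes `a`. -/
theorem cube_comm {G : Type*} [Group G] {m a d : G} (h1 : m * a * m⁻¹ = a * d)
    (h2 : m * d = d * m) (h3 : d ^ 3 = 1) : a * m ^ 3 = m ^ 3 * a := by
  have e : m * a = a * (d * m) := by rw [← mul_assoc, ← h1]; group
  have c : Commute d m := h2.symm
  have k : ∀ n : ℕ, m ^ n * a = a * (d ^ n * m ^ n) := fun n => by
    induction n with
    | zero => simp
    | succ n ih =>
      rw [← c.mul_pow, pow_succ', pow_succ', mul_assoc, ih, ← mul_assoc, e, ← c.mul_pow, mul_assoc]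
  rw [k, h3, one_mul]

variable {H Q : Type*} [Group H] [Finite H] [Group Q] {P : Sylow 3 H} {z : H} {π : H →* Q}

theorem ker_cen (h : CE π z) {k : H} (hk : π k = 1) (y : H) : k * y = y * k :=
  (mem_center_iff.1 (h.le hk) y).symm

theorem comap_A (h : CE π z) (hX : X P z) :
    ((P : Subgroup H).map π).comap π = P :=
  comap_map_eq_self (h.ker ▸ zpowers_le.2 hX.mem)

theorem nor_A (h : CE π z) (hX : X P z) :
    (normalizer (((P : Subgroup H).map π : Subgroup Q) : Set Q)).comap π =
      normalizer ((P : Subgroup H) : Set H) := by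
  rw [comap_normalizer_eq_of_surjective _ h.surj, comap_A h hX]

theorem comm_A (h : CE π z) (hX : X P z) {a b : H} (ha : a ∈ (P : Subgroup H))
    (hb : b ∈ (P : Subgroup H)) : π a * π b = π b * π a := by
  have : π (a * b * a⁻¹ * b⁻¹) = 1 := by
    rw [← MonoidHom.mem_ker, h.ker]; exact hX.com a ha b hb
  simpa [mul_inv_eq_one, mul_inv_eq_iff_eq_mul] using this

theorem le_cen_A (h : CE π z) (hX : X P z) : (P : Subgroup H).map π ≤
    centralizer (((P : Subgroup H).map π : Subgroup Q) : Set Q) := by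
  rintro _ ⟨a, ha, rfl⟩ _ ⟨b, hb, rfl⟩
  exact comm_A h hX hb ha

theorem jobF3 : JobF3.{u} := by
  intro H Q _ _ _ P z π h hX
  have : Finite Q := Finite.of_surjective π h.surj
  refine ⟨⟨⟨⟨fun a b => Subtype.ext (le_cen_A h hX b.2 a a.2)⟩⟩, fun y hy y1 => le_antisymm ?_
    (le_inf (centralizer_le (Set.singleton_subset_iff.2 hy)) (centralizer_le_normalizer _))⟩, ?_⟩
  · obtain ⟨u, hu, rfl⟩ := hy
    rintro m ⟨hm1, hm2⟩
    obtain ⟨n, rfl⟩ := h.surj m
    have hn : n ∈ normalizer ((P : Subgroup H) : Set H) := (nor_A h hX).le hm2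
    have hm : π n * π u = π u * π n := mem_centralizer_singleton_iff.1 hm1
    have huz : u ∉ zpowers z := fun k => y1 (by rw [← h.ker] at k; exact k)
    refine mem_of_pow (P.mapSurjective h.surj)
      (K := centralizer (((P : Subgroup H).map π : Subgroup Q) : Set Q))
      (N := normalizer (((P : Subgroup H).map π : Subgroup Q) : Set Q))
      (le_cen_A h hX) le_normalizer hm2 ?_
    rintro _ ⟨v, hv, rfl⟩
    have hv' : n * v * n⁻¹ ∈ (P : Subgroup H) := (mem_normalizer_iff.1 hn v).1 hv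
    have hd : v⁻¹ * (n * v * n⁻¹) ∈ (P : Subgroup H) := mul_mem (inv_mem hv) hv'
    have k1 := ker_cen h (k := n * u * n⁻¹ * u⁻¹) (by simp [hm])
    have k2 := ker_cen h (k := u * v * u⁻¹ * v⁻¹) (by simp [comm_A h hX hu hv]) n
    have hc : v⁻¹ * (n * v * n⁻¹) ∈ centralizer ({u} : Set H) := by
      refine mem_centralizer_singleton_iff.2 ?_
      generalize hw : n * v * n⁻¹ = w
      generalize hk : n * u * n⁻¹ * u⁻¹ = k at k1
      have e1 : n * u * n⁻¹ = k * u := by rw [← hk]; group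
      have e2 : u * v * u⁻¹ * v⁻¹ = u * w * u⁻¹ * w⁻¹ := by
        calc u * v * u⁻¹ * v⁻¹ = n * (u * v * u⁻¹ * v⁻¹) * n⁻¹ := by rw [← k2]; group
          _ = (n * u * n⁻¹) * (n * v * n⁻¹) * (n * u * n⁻¹)⁻¹ * (n * v * n⁻¹)⁻¹ := by group
          _ = k * (u * w * u⁻¹) * k⁻¹ * w⁻¹ := by rw [e1, hw]; group
          _ = _ := by rw [k1]; group
      calc v⁻¹ * w * u = v⁻¹ * (u * w * u⁻¹ * w⁻¹)⁻¹ * u * w := by group
        _ = u * (v⁻¹ * w) := by rw [← e2]; group
    have hT : ((P : Subgroup H) ⊓ centralizer {u}) ⊓ (centralizer {π n}).comap π =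
        (P : Subgroup H) ⊓ centralizer {u} := by
      refine eq_of_le_of_card_ge inf_le_left ?_
      have h9 := nine_dvd (T := ((P : Subgroup H) ⊓ centralizer {u}) ⊓ (centralizer {π n}).comap π)
        (P.2.to_le (inf_le_left.trans inf_le_left)) h.ord
        ⟨⟨hX.mem, mem_centralizer_singleton_iff.2 (h.comm u)⟩,
          mem_centralizer_singleton_iff.2 (by simp [h.map])⟩
        ⟨⟨hu, mem_centralizer_singleton_iff.2 rfl⟩, mem_centralizer_singleton_iff.2 hm.symm⟩ huz
      refine le_trans ?_ (Nat.le_of_dvd Nat.card_pos h9)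
      have c3 := card_dvd_of_le (inf_le_left : (P : Subgroup H) ⊓ centralizer {u} ≤ P)
      rw [hX.card] at c3
      obtain ⟨j, hj, e⟩ := (Nat.dvd_prime_pow Nat.prime_three (m := 3)).1 c3
      rcases hj.lt_or_eq with k | rfl
      · rw [e]
        exact Nat.pow_le_pow_right (by norm_num) (show j ≤ 2 by omega)
      · have := eq_of_le_of_card_ge (inf_le_left : (P : Subgroup H) ⊓ centralizer {u} ≤ P)
          (by rw [hX.card, e]; norm_num)
        exact absurd ((hX.cen u hu).2 fun y hy =>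
          (mem_centralizer_singleton_iff.1 (this.ge hy).2).symm) huz
    refine cube_comm (d := π (v⁻¹ * (n * v * n⁻¹))) (by simp)
      (mem_centralizer_singleton_iff.1 (hT.ge ⟨hd, hc⟩).2).symm ?_
    rw [← map_pow, hX.exp _ hd, map_one]
  · have h1 := (π.ker.subgroupOf (P : Subgroup H)).card_mul_index
    have h2 : π.ker ≤ P := h.ker ▸ zpowers_le.2 hX.mem
    rw [Nat.card_congr (subgroupOfEquivOfLe h2).toEquiv, h.card, hX.card, ← relIndex,
      relIndex_ker] at h1
    rw [Sylow.coe_mapSurjective]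
    omega

theorem jobF4 : JobF4.{u} := by
  intro H Q _ _ _ P z π h hX
  rw [← index_ker, normalizerMonoidHom_ker, ← relIndex, Sylow.coe_mapSurjective, ei,
    ← map_comap_eq_self_of_surjective h.surj (normalizer _), nor_A h hX, ← relIndex_comap,
    relIndex, relIndex]
  congr 1
  have hN : ((P : Subgroup H) ⊔ centralizer ((P : Subgroup H) : Set H)).subgroupOf
      (normalizer ((P : Subgroup H) : Set H)) |>.Normal := by
    rw [subgroupOf_sup le_normalizer (centralizer_le_normalizer _)]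
    infer_instance
  refine le_antisymm (fun n hn => ?_) (comap_mono (sup_le (map_le_iff_le_comap.1 (le_cen_A h hX))
    fun c hc => ?_))
  · refine mem_of_pow P le_sup_left le_normalizer n.2 (mem_sup_right fun v hv => ?_)
    have e : π v * π n = π n * π v := hn _ ⟨v, hv, rfl⟩
    have k1 : π (v⁻¹ * (n * v * (n : H)⁻¹)) = 1 := by simp [← e]
    refine cube_comm (m := (n : H)) (d := v⁻¹ * (n * v * (n : H)⁻¹)) (by group)
      (ker_cen h k1 _).symm ?_
    exact hX.exp _ (mul_mem (inv_mem hv) ((mem_normalizer_iff.1 n.2 v).1 hv))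
  · rintro _ ⟨v, hv, rfl⟩
    rw [← map_mul, ← map_mul, hc v hv]

end H94.X3
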